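import Cfsg.Agent.R2.B

/-! Structure of a Sylow subgroup of rank two with a central element of order `p`, when there
is no `p`-quotient. -/

set_option autoImplicit false
set_option linter.unusedSectionVars false

namespace CfH5.R2

open Cfsg CfH9 CfH7 CfH8 CfH1 CfFT Subgroup
open scoped commutatorElement IsMulCommutative

variable {G : Type*} [Group G] [Finite G] {p : ℕ} [hp : Fact p.Prime]

def Concl (p : ℕ) (P : Subgroup G) : Prop :=
  (Nat.card P = p ^ 3 ∧ ¬ Ab P ∧ ∀ y ∈ P, y ^ p = 1) ∨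
    (p = 3 ∧ ∃ k, 2 ≤ k ∧ Nat.card P = 3 ^ (2 * k + 1) ∧ P.lowerCentralSeries (2 * k) = ⊥ ∧
      P.lowerCentralSeries (2 * k - 1) ≠ ⊥)

structure H1 (p : ℕ) (x : G) (P A : Subgroup G) : Prop extends H0 p x where
  syl : SylIn p P ⊤
  mem : x ∈ P
  der : P ≤ ⁅(⊤ : Subgroup G), ⊤⁆
  nmA : A ≤ Nm(P)
  cop : (Nat.card A).Coprime p
  dec : ∀ n ∈ Nm(P), ∃ y ∈ P, ∃ a ∈ A, y * a = n

variable {P Q A W D Y N : Subgroup G} {x : G}

theorem mem_of_sq (h2 : p ≠ 2) {b : G} (e : b ^ p = 1) (h : b * b ∈ Y) : b ∈ Y := by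
  refine mem_of_pow_mem_of_coprime (n := 2) (by rwa [sq]) ?_
  exact Nat.Coprime.coprime_dvd_left (orderOf_dvd_of_pow_eq_one e)
    ((Nat.coprime_primes hp.out Nat.prime_two).2 h2)

/-- elements killed by `n` in an abelian subgroup -/
def ann (M : Subgroup G) (h : Ab M) (n : ℕ) : Subgroup G where
  carrier := {y | y ∈ M ∧ y ^ n = 1}
  one_mem' := ⟨one_mem _, one_pow _⟩
  mul_mem' := fun {a b} ha hb => ⟨mul_mem ha.1 hb.1, by
    have : Commute a b := comm_iff.1 h a ha.1 b hb.1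
    rw [this.mul_pow, ha.2, hb.2, one_mul]⟩
  inv_mem' := fun {a} ha => ⟨inv_mem ha.1, by rw [inv_pow, ha.2, inv_one]⟩

/-- `n`-th powers in an abelian subgroup -/
def pws (M : Subgroup G) (h : Ab M) (n : ℕ) : Subgroup G where
  carrier := {z | ∃ y ∈ M, y ^ n = z}
  one_mem' := ⟨1, one_mem _, one_pow _⟩
  mul_mem' := by
    rintro _ _ ⟨a, ha, rfl⟩ ⟨b, hb, rfl⟩
    have : Commute a b := comm_iff.1 h a ha b hb
    exact ⟨a * b, mul_mem ha hb, this.mul_pow n⟩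
  inv_mem' := by
    rintro _ ⟨a, ha, rfl⟩
    exact ⟨a⁻¹, inv_mem ha, inv_pow a n⟩

theorem Nm_ann {M : Subgroup G} (h : Ab M) (n : ℕ) : Nm(M) ≤ Nm(ann M h n) :=
  fun g hg => mem_normalizer_of_conj_mem fun y hy =>
    ⟨conj_mem_of_mem_normalizer hg hy.1, by rw [conj_pow, hy.2]; group⟩

theorem Nm_pws {M : Subgroup G} (h : Ab M) (n : ℕ) : Nm(M) ≤ Nm(pws M h n) :=
  fun g hg => mem_normalizer_of_conj_mem (by
    rintro _ ⟨y, hy, rfl⟩
    exact ⟨_, conj_mem_of_mem_normalizer hg hy, conj_pow⟩)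

namespace H1

variable (h : H1 p x P A)
include h

theorem pgrp : IsPGroup p P := h.syl.pgrp

theorem act_le (h1 : ⁅P, P⁆ ≤ Y) (h2 : ⁅P, A⁆ ≤ Y) :
    ∀ a ∈ P, ∀ n ∈ Nm(P), a⁻¹ * (n * a * n⁻¹) ∈ Y := by
  intro a ha n hn
  obtain ⟨y, hy, c, hc, rfl⟩ := h.dec n hn
  have e : a⁻¹ * (y * c * a * (y * c)⁻¹) = ⁅a⁻¹, c⁆ * ⁅(c * a * c⁻¹)⁻¹, y⁆ := by
    rw [commutatorElement_def, commutatorElement_def]; group
  rw [e]
  exact mul_mem (h2 (commutator_mem_commutator (inv_mem ha) hc))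
    (h1 (commutator_mem_commutator (inv_mem (conj_mem_of_mem_normalizer (h.nmA hc) ha)) hy))

theorem noEss (hn : ∀ Q, ¬ Ess p P Q) : ⁅P, A⁆ = P := by
  by_contra hne
  obtain ⟨Y, h1, h2, h3⟩ := exists_relIndex_prime_ge h.pgrp
    (lt_of_le_of_ne (commutator_le_left_of_le_normalizer h.nmA) hne)
  exact not_le_of_relIndex_prime h3 (foc_le h.syl h.der
    (h.act_le ((comm_le_Phi h.pgrp).trans (Phi_le_of_relIndex_prime h3)) h1)
    fun Q hQ => absurd hQ (hn Q))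

theorem not_pc : ¬ PC p P := by
  intro hc
  have e := h.noEss fun Q hQ => by
    obtain ⟨D, hD⟩ := hQ.es h.toH0 h.syl h.mem
    exact h.not_ab hD.card (fun _ => hD.exp) (comm_iff.2 fun a ha b hb =>
      mem_centralizer_iff.1 (hc b (hQ.lt.le (hD.le hb)) (hD.exp hb)) a (hQ.lt.le (hD.le ha)))
  have := hc.cent_eq_bot h.odd h.rk h.pgrp h.cop h.nmA e
  exact h.ne (mem_bot.1 (this ▸ mi h.mem (h.cz A)))

theorem of_es (hD : ES p x P D) : Concl p P := by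
  have e := h.noEss fun Q hQ => by
    obtain ⟨D', hD'⟩ := hQ.es h.toH0 h.syl h.mem
    have h1 : D' ≤ D := fun y hy => (hD.mem y (hQ.lt.le (hD'.le hy))).1 (hD'.exp hy)
    have h2 : D' = D := eq_of_le_of_card_ge h1 (by rw [hD.card, hD'.card])
    refine hQ.lt.not_ge fun y hy => ?_
    obtain ⟨d, hd, z, hz, rfl⟩ := hD.dec y hy
    exact mul_mem (hD'.le (h2 ▸ hd)) (hQ.cen ⟨hz.1, Cz_anti hQ.lt.le hz.2⟩)
  have hZ : A ≤ Cz(P ⊓ Cz(P)) :=
    le_Cz_of_omega (h.pgrp.to_le inf_le_left) (nI h.nmA (h.nmA.trans (Nm_le_Nm_Cz P))) h.cop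
      fun y hy e => by
        rcases e with e | e
        · exact h.czX A (hD.zc h.toH0 hy e)
        · exact absurd e.1 h.odd
  have h1 : P ≤ D := by
    rw [← e, commutator_le]
    intro y hy a ha
    obtain ⟨d, hd, z, hz, rfl⟩ := hD.dec y hy
    have e1 : ⁅d * z, a⁆ = ⁅d, a⁆ := by
      rw [commutatorElement_mul_left_eq_conj_mul, commutatorElement_eq_one_iff_mul_comm.2
        (mem_centralizer_iff.1 (hZ ha) z hz)]; group
    rw [e1]
    exact commutator_mem_left hd (hD.nm (h.nmA ha))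
  have h2 : P = D := le_antisymm h1 hD.le
  subst h2
  exact Or.inl ⟨hD.card, h.not_ab hD.card fun _ => hD.exp, fun _ => hD.exp⟩

end H1

structure H2 (p : ℕ) (x : G) (P A W M : Subgroup G) : Prop extends H1 p x P A where
  el : El p 2 W P
  nW : Nm(P) ≤ Nm(W)
  eM : M = P ⊓ Cz(W)
  ncen : ¬ P ≤ Cz(W)

namespace H2

variable {M : Subgroup G} (h : H2 p x P A W M)
include h

theorem MP : M ≤ P := h.eM ▸ inf_le_left
theorem Mp : IsPGroup p M := h.pgrp.to_le h.MP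
theorem nM : Nm(P) ≤ Nm(M) := h.eM ▸ nI le_rfl (h.nW.trans (Nm_le_Nm_Cz W))
theorem WM : W ≤ M := h.eM ▸ le_inf h.el.le (le_Cz_of_comm h.el.ab)

theorem idxM : M.relIndex P = p := by
  have := relIndex_Cz_dvd_prime h.el.eab (rk_le_of_card h.el.card) h.pgrp
    (le_normalizer.trans h.nW)
  rw [h.eM, inf_relIndex_left]
  exact ((Nat.dvd_prime hp.out).1 this).resolve_left fun e => h.ncen (relIndex_eq_one.1 e)

theorem omM {y : G} (hy : y ∈ M) (e : y ^ p = 1) : y ∈ W :=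
  h.mem_el h.el e (h.eM ▸ hy : y ∈ P ⊓ Cz(W)).2

theorem pcM : PC p M := fun y hy e =>
  le_centralizer_iff.1 (h.eM ▸ inf_le_right : M ≤ Cz(W)) (h.omM hy e)

theorem cxX {b w : G} (hb : b ∈ P) (hbM : b ∉ M) (hw : w ∈ W) (e : b * w = w * b) :
    w ∈ zpowers x := by
  by_contra hn
  exact hbM (h.eM ▸ mi hb (h.cz_el h.el hw hn e))

theorem exists_s : ∃ s ∈ P, s ∉ M := by
  by_contra hh
  push Not at hh
  exact not_le_of_relIndex_prime h.idxM hh

theorem gen {s : G} (hs : s ∈ P) (hsM : s ∉ M) : M ⊔ zpowers s = P :=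
  sup_eq_of_relIndex_prime h.MP h.idxM (zpowers_le_of_mem hs) fun hh => hsM (hh (mem_zpowers s))

theorem x_mem (h1 : N ≤ M) (h2 : N ≠ ⊥) (h3 : P ≤ Nm(N)) : x ∈ N := by
  obtain ⟨z, hz, hz1, hzc⟩ := exists_mem_center_of_normal h.pgrp (h.Mp.to_le h1) h3 h2
  obtain ⟨k, hk⟩ := isPGroup_iff_mem.1 h.Mp z (h1 hz)
  obtain ⟨n, hn⟩ := exists_pow_orderOf_eq_prime hk hz1
  obtain ⟨s, hs, hsM⟩ := h.exists_s
  have := h.cxX hs hsM (h.omM (h1 (pow_mem hz n)) (pow_eq_one_of_orderOf hn))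
    (mem_centralizer_iff.1 (pow_mem hzc n) s hs)
  exact zpowers_le_of_mem (pow_mem hz n)
    (mem_zpowers_of_mem h.ord this (ne_one_of_orderOf_eq_prime hn))

theorem der_le : ⁅P, P⁆ ≤ M := (comm_le_Phi h.pgrp).trans (Phi_le_of_relIndex_prime h.idxM)

theorem ess_W (hQ : Q ≤ P) (hD : ES p x Q D) : El p 2 W Q := by
  have h1 : D ⊓ M ≤ W := fun y hy => h.omM hy.2 (hD.exp hy.1)
  have h2 := card_mul_card_le (hD.le.trans hQ) h.MP
  rw [card_eq_mul_of_relIndex h.MP h.idxM, hD.card] at h2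
  have h3 : p ^ 2 ≤ Nat.card (D ⊓ M : Subgroup G) := by
    have h4 : 0 < p * Nat.card M := Nat.mul_pos hp.out.pos Nat.card_pos
    apply Nat.le_of_mul_le_mul_left _ h4
    calc _ = p ^ 3 * Nat.card M := by ring
      _ ≤ _ := h2
  have h4 := eq_of_le_of_card_ge h1 (by rwa [h.el.card])
  exact h.el.mono (h4 ▸ inf_le_left.trans hD.le)

theorem ess_b (hD : ES p x Q D) : ∃ b ∈ D, b ∉ M := by
  by_contra hh
  push Not at hh
  have := card_le_of_le (show D ≤ W from fun y hy => h.omM (hh y hy) (hD.exp hy))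
  rw [hD.card, h.el.card, Nat.pow_le_pow_iff_right hp.out.one_lt] at this
  omega

theorem ext_t (hE : Ess p P Q) (hm : ∀ Q', Ess p P Q' → Nat.card Q' ≤ Nat.card Q)
    (hD : ES p x Q D) : ∃ n ∈ Nm(P), ∀ d ∈ D, n * d * n⁻¹ * d ∈ W := by
  obtain ⟨t, ht, e⟩ := hE.exists_t h.toH0 h.syl h.mem hD (h.ess_W hE.lt.le hD)
    (inf_le_left.trans (le_normalizer.trans h.nW))
  have hlt := hE.lt' h.toH0 h.syl h.mem
  obtain ⟨n, hn, e'⟩ := ext h.syl _ hm (Q := P ⊓ Nm(Q)) inf_le_left (CfH9.card_lt_of_lt hlt)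
    (g := t) (by rw [cj_eq_of_mem_normalizer ht.2]; exact inf_le_left)
  exact ⟨n, hn, fun d hd => by rw [← e' d (hlt.le (hD.le hd))]; exact e d hd⟩

theorem D_le (hE : Ess p P Q) (hm : ∀ Q', Ess p P Q' → Nat.card Q' ≤ Nat.card Q)
    (hD : ES p x Q D) (hW : W ≤ Y) (h1 : ∀ a ∈ P, ∀ n ∈ Nm(P), a⁻¹ * (n * a * n⁻¹) ∈ Y) :
    D ≤ Y := by
  intro d hd
  obtain ⟨n, hn, e⟩ := h.ext_t hE hm hD
  refine mem_of_sq h.odd (hD.exp hd) ?_
  have := mul_mem (h1 d⁻¹ (inv_mem (hE.lt.le (hD.le hd))) n hn) (hW (e d hd))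
  convert this using 1; group

theorem nAW : A ≤ Nm(W) := h.nmA.trans h.nW
theorem nAM : A ≤ Nm(M) := h.nmA.trans h.nM

theorem claim1 : ¬ A ≤ Cz(W) := by
  intro hA
  have h1 : ⁅P, A⁆ ≤ M := h.eM ▸ comm_le_inf_Cz h.nmA (le_normalizer.trans h.nW) hA
  have h2 := h.act_le h.der_le h1
  by_cases hn : ∀ Q, ¬ Ess p P Q
  · exact not_le_of_relIndex_prime h.idxM (h.noEss hn ▸ h1)
  push Not at hn
  obtain ⟨Q, hQ, hm⟩ := Set.exists_max_image {Q | Ess p P Q} (fun Q => Nat.card Q)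
    (Set.toFinite _) hn
  obtain ⟨D, hD⟩ := hQ.es h.toH0 h.syl h.mem
  obtain ⟨b, hb, hbM⟩ := h.ess_b hD
  exact hbM (h.D_le hQ hm hD h.WM h2 hb)

theorem KM : ⁅M, A⁆ ≤ M := commutator_le_left_of_le_normalizer h.nAM

theorem KC : ⁅M, A⁆ ⊓ Cz(A) = ⊥ :=
  (h.pcM.mono h.KM).cent_eq_bot h.odd h.rk (h.Mp.to_le h.KM) h.cop
    (fun _ ha => mem_Nm_commutator (h.nAM ha) (le_normalizer ha))
    (commutator_commutator_eq h.nAM (cop_of h.cop h.Mp) (Or.inr (isSolvable_of_isPGroup h.Mp)))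

theorem xK : x ∉ ⁅M, A⁆ := fun hh => h.ne (mem_bot.1 (h.KC ▸ mi hh (h.cz A)))

theorem cycK : Cyc ⁅M, A⁆ :=
  h.cyc h.el (U := W ⊓ ⁅M, A⁆) (h.Mp.to_le h.KM)
    (lt_of_le_of_ne inf_le_left fun e => h.xK (inf_eq_left.1 e (h.X_le h.el (mem_zpowers x))))
    fun y hy e => ⟨h.omM (h.KM hy) e, hy⟩

theorem cycC : Cyc (M ⊓ Cz(A) : Subgroup G) :=
  h.cyc h.el (U := W ⊓ Cz(A)) (h.Mp.to_le inf_le_left)
    (lt_of_le_of_ne inf_le_left fun e => h.claim1 (le_centralizer_iff.1 (e ▸ inf_le_right)))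
    fun y hy e => ⟨h.omM hy.1 e, hy.2⟩

theorem supKC : ⁅M, A⁆ ⊔ (M ⊓ Cz(A)) = M :=
  commutator_sup_centralizer_eq h.nAM (cop_of h.cop h.Mp) (Or.inr (isSolvable_of_isPGroup h.Mp))

theorem K_ne : ⁅M, A⁆ ≠ ⊥ := fun e => h.claim1
  ((le_centralizer_iff.1 (le_centralizer_iff_commutator_eq_bot.2 e)).trans (Cz_anti h.WM))

theorem Mab : Ab M := by
  show IsMulCommutative M
  rw [← le_centralizer_iff_isMulCommutative, le_centralizer_iff_commutator_eq_bot]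
  by_contra hne
  have h1 := der_sup_le_sup (K := ⁅M, A⁆) (L := M ⊓ Cz(A))
    (inf_le_left.trans (normalizer_commutator_ge_left M A))
  rw [h.supKC, le_centralizer_iff_commutator_eq_bot.1
    (le_Cz_of_comm (comm_of_isCyclic h.cycC)), sup_bot_eq] at h1
  exact h.xK (h1 (h.x_mem (h1.trans h.KM) hne
    ((le_normalizer.trans h.nM).trans (Nm_le_Nm_der M))))

theorem dec' {y : G} (hy : y ∈ M) : ∃ k ∈ ⁅M, A⁆, ∃ c ∈ M ⊓ Cz(A), k * c = y := by
  rw [← h.supKC, mem_sup_of_le_Nm' (inf_le_left.trans (normalizer_commutator_ge_left M A))] at hy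
  exact hy

theorem cz_of {b z : G} (hb : b ∈ P) (hbM : b ∉ M) (hz : z ∈ M) (e : z * b = b * z) :
    z ∈ Cz(P) := by
  rw [← h.gen hb hbM, Cz_sup, Cz_zpowers]
  exact ⟨le_Cz_of_comm h.Mab hz, mem_Cx.2 e⟩

theorem ess_Z (hE : Ess p P Q) (hD : ES p x Q D) : Q ⊓ Cz(Q) ≤ Cz(P) := by
  obtain ⟨b, hb, hbM⟩ := h.ess_b hD
  intro z hz
  have hW := h.ess_W hE.lt.le hD
  exact h.cz_of (hE.lt.le (hD.le hb)) hbM (h.eM ▸ mi (hE.lt.le hz.1) (Cz_anti hW.le hz.2))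
    (mem_centralizer_iff.1 hz.2 b (hD.le hb)).symm

theorem ess_card (hE : Ess p P Q) :
    Nat.card Q * p = p ^ 3 * Nat.card (P ⊓ Cz(P) : Subgroup G) := by
  obtain ⟨D, hD⟩ := hE.es h.toH0 h.syl h.mem
  have hZ : P ⊓ Cz(P) ≤ Q ⊓ Cz(Q) := fun z hz =>
    ⟨hE.cen ⟨hz.1, Cz_anti hE.lt.le hz.2⟩, Cz_anti hE.lt.le hz.2⟩
  have e1 : D ⊔ (P ⊓ Cz(P)) = Q := by
    refine le_antisymm (sup_le hD.le (hZ.trans inf_le_left)) fun y hy => ?_
    obtain ⟨d, hd, z, hz, rfl⟩ := hD.dec y hy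
    exact mul_mem (mem_sup_left hd) (mem_sup_right ⟨hE.lt.le hz.1, h.ess_Z hE hD hz⟩)
  have e2 : D ⊓ (P ⊓ Cz(P)) = zpowers x :=
    le_antisymm (fun z hz => hD.zc h.toH0 (hZ hz.2) (hD.exp hz.1))
      (le_inf (hD.X_le h.toH0 (hE.x_mem h.toH0 h.syl h.mem))
        (le_inf (zpowers_le_of_mem h.mem) (h.czX P)))
  have := CfH9.card_sup_mul_card_inf (A := D) (B := P ⊓ Cz(P))
    ((hD.le.trans hE.lt.le).trans (nI le_normalizer (le_normalizer.trans (Nm_le_Nm_Cz P))))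
  rwa [e1, e2, h.cardX, hD.card] at this

theorem le_of (hW : W ≤ Y) (h1 : ⁅P, P⁆ ≤ Y) (h2 : ⁅P, A⁆ ≤ Y) : P ≤ Y := by
  have h3 := h.act_le h1 h2
  refine foc_le h.syl h.der h3 fun Q hQ a ha n hn => ?_
  obtain ⟨D, hD⟩ := hQ.es h.toH0 h.syl h.mem
  have hDY := h.D_le hQ (fun Q' hQ' => by
    have := (h.ess_card hQ').trans (h.ess_card hQ).symm
    exact (Nat.eq_of_mul_eq_mul_right hp.out.pos this).le) hD hW h3
  obtain ⟨d, hd, z, hz, rfl⟩ := hD.dec a ha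
  have e1 := conj_eq_of_mem_centralizer
    (hQ.cz_center h.toH0 h.syl h.mem hD (h.ess_Z hQ hD) hn) hz
  have hd' : d⁻¹ * (n * d * n⁻¹) ∈ D :=
    mul_mem (inv_mem hd) (conj_mem_of_mem_normalizer (hD.nm hn) hd)
  have e2 := mem_centralizer_iff.1 hz.2 _ (hD.le hd')
  have : (d * z)⁻¹ * (n * (d * z) * n⁻¹) = d⁻¹ * (n * d * n⁻¹) := by
    calc _ = z⁻¹ * ((d⁻¹ * (n * d * n⁻¹)) * (n * z * n⁻¹)) := by group
      _ = _ := by rw [e1, e2]; group
  rw [this]; exact hDY hd'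

theorem card_le : Nat.card (⁅M, A⁆ : Subgroup G) ≤ Nat.card (M ⊓ Cz(A) : Subgroup G) := by
  by_contra hlt
  push Not at hlt
  set n := Nat.card (M ⊓ Cz(A) : Subgroup G)
  have h1 : pws M h.Mab n ≤ ⁅M, A⁆ := by
    rintro _ ⟨y, hy, rfl⟩
    obtain ⟨k, hk, c, hc, rfl⟩ := h.dec' hy
    have : Commute k c := comm_iff.1 h.Mab k (h.KM hk) c hc.1
    rw [this.mul_pow, pow_card_eq_one_of_mem hc, mul_one]
    exact pow_mem hk n
  obtain ⟨m, hm⟩ := cyc_iff.1 h.cycK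
  have hmK : m ∈ ⁅M, A⁆ := hm ▸ mem_zpowers m
  refine h.xK (h1 (h.x_mem (h1.trans h.KM) (ne_bot_of_mem (a := m ^ n) ⟨m, h.KM hmK, rfl⟩ ?_)
    ((le_normalizer.trans h.nM).trans (Nm_pws h.Mab n))))
  intro e
  have := Nat.le_of_dvd Nat.card_pos (orderOf_dvd_of_pow_eq_one e)
  rw [← Nat.card_zpowers, hm] at this
  omega

theorem card_eq : Nat.card (⁅M, A⁆ : Subgroup G) = Nat.card (M ⊓ Cz(A) : Subgroup G) := by
  refine h.card_le.antisymm (not_lt.1 fun hlt => ?_)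
  obtain ⟨k, hk⟩ := IsPGroup.iff_card.1 (h.Mp.to_le h.KM)
  obtain ⟨j, hj⟩ := IsPGroup.iff_card.1 (h.Mp.to_le (inf_le_left : M ⊓ Cz(A) ≤ M))
  rw [hk, hj, Nat.pow_lt_pow_iff_right hp.out.one_lt] at hlt
  have hk0 : k ≠ 0 := fun e => h.K_ne (card_eq_one.1 (by rw [hk, e, pow_zero]))
  obtain ⟨j, rfl⟩ : ∃ i, j = i + 1 := ⟨j - 1, by omega⟩
  set Y := ann M h.Mab (p ^ j) with hY
  have hYM : Y ≤ M := fun y hy => hy.1
  have nY : Nm(P) ≤ Nm(Y) := h.nM.trans (Nm_ann h.Mab _)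
  have hPY : P ≤ Nm(Y) := le_normalizer.trans nY
  have hAY : A ≤ Nm(Y) := h.nmA.trans nY
  have hKY : ⁅M, A⁆ ≤ Y := fun y hy => ⟨h.KM hy, by
    obtain ⟨i, hi⟩ : p ^ k ∣ p ^ j := pow_dvd_pow p (by omega)
    rw [hi, pow_mul, ← hk, pow_card_eq_one_of_mem hy, one_pow]⟩
  have hWY : W ≤ Y := fun y hy => ⟨h.WM hy,
    pow_eq_one_of_dvd (h.el.eab.2 y hy) (dvd_pow_self p (by omega))⟩
  obtain ⟨c, hc⟩ := cyc_iff.1 h.cycC
  have hcC : c ∈ M ⊓ Cz(A) := hc ▸ mem_zpowers c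
  have hcY : c ∉ Y := fun hh => by
    have := Nat.le_of_dvd (pow_pos hp.out.pos j) (orderOf_dvd_of_pow_eq_one hh.2)
    rw [← Nat.card_zpowers, hc, hj, Nat.pow_le_pow_iff_right hp.out.one_lt] at this
    omega
  have hcp : c ^ p ∈ Y := ⟨pow_mem hcC.1 p, by
    rw [← pow_mul, ← pow_succ', ← hj, pow_card_eq_one_of_mem hcC]⟩
  have hsup : Y ⊔ zpowers c = M := le_antisymm (sup_le hYM (zpowers_le_of_mem hcC.1)) (by
    rw [← h.supKC, ← hc]; exact sup_le_sup_right hKY _)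
  have hidx := relIndex_sup_zpowers (hPY (h.MP hcC.1)) hcY hcp
  rw [hsup] at hidx
  have h1 : ⁅M, P⁆ ≤ Y :=
    comm_le_of_idx (h.MP.trans hPY) hidx h.pgrp (le_normalizer.trans h.nM) hPY
  obtain ⟨s, hs, hsM⟩ := h.exists_s
  have h2 : ⁅P, P⁆ ≤ Y := by
    have := der_sup_le (A := M) (B := zpowers s) (h.MP.trans hPY)
      ((zpowers_le_of_mem hs).trans hPY) ((commutator_mono le_rfl h.MP).trans h1)
      (by rw [der_zpowers]; exact bot_le) ((commutator_mono le_rfl (zpowers_le_of_mem hs)).trans h1)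
    rwa [h.gen hs hsM] at this
  have h3 := h.le_of (Y := ⁅P, A⁆ ⊔ Y) (hWY.trans le_sup_right) (h2.trans le_sup_right) le_sup_left
  have h4 : IsMulCommutative (qb Y P) := by
    rw [← le_centralizer_iff_isMulCommutative, qb_le_Cz_iff hPY hPY]; exact h2
  have h5 := commutator_inf_centralizer_eq_bot (A := qb Y A) h4 (qb_le_Nm h.nmA)
    (cop_of (Nat.Coprime.coprime_dvd_left (card_qb_dvd hAY) h.cop) (isPGroup_qb h.pgrp))
  have hcN : zpowers c ≤ Nm(Y) := (zpowers_le_of_mem (h.MP hcC.1)).trans hPY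
  rw [← qb_commutator hPY hAY] at h5
  refine hcY ((qb_eq_bot_iff hcN).1 ?_ (mem_zpowers c))
  rw [eq_bot_iff, ← h5]
  refine le_inf ((qb_le_qb_iff hcN
    ((commutator_le_left_of_le_normalizer h.nmA).trans hPY)).2
      ((zpowers_le_of_mem (h.MP hcC.1)).trans h3)) ?_
  rw [qb_le_Cz_iff hcN hAY, le_centralizer_iff_commutator_eq_bot.1 (zpowers_le_of_mem hcC.2)]
  exact bot_le

theorem card_M : Nat.card M = Nat.card (⁅M, A⁆ : Subgroup G) ^ 2 := by
  have := CfH9.card_sup_mul_card_inf (A := M ⊓ Cz(A)) (B := ⁅M, A⁆)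
    (inf_le_left.trans (normalizer_commutator_ge_left M A))
  have e : ⁅M, A⁆ ⊓ (M ⊓ Cz(A)) = ⊥ := by
    rw [eq_bot_iff, ← h.KC]; exact inf_le_inf_left _ inf_le_right
  rw [sup_comm, h.supKC, inf_comm, e, card_bot, mul_one, ← h.card_eq] at this
  rw [this, sq]

theorem small (hc : Nat.card P = p ^ 3) : Concl p P := by
  have e := h.noEss fun Q hQ => by
    obtain ⟨D, hD⟩ := hQ.es h.toH0 h.syl h.mem
    have := (card_le_of_le hD.le).trans_lt (CfH9.card_lt_of_lt hQ.lt)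
    rw [hD.card, hc] at this
    exact lt_irrefl _ this
  have hMW : M = W := (eq_of_le_of_card_ge h.WM (by
    have := card_eq_mul_of_relIndex h.MP h.idxM
    rw [hc, pow_succ', ← h.el.card] at this
    exact (Nat.eq_of_mul_eq_mul_left hp.out.pos this).ge)).symm
  have h2 := class2_of_card (R := P) (p := p) (by rw [hc])
  have hX : ∀ y ∈ P, y ^ p ∈ zpowers x := fun y hy => by
    by_cases hm : y ∈ M
    · rw [h.el.eab.2 y (hMW ▸ hm)]; exact one_mem _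
    · exact h.cxX hy hm (hMW ▸ Phi_le_of_relIndex_prime h.idxM (pow_mem_Phi h.pgrp hy))
        (Commute.self_pow y p).eq
  refine Or.inl ⟨hc, fun hh => h.ncen ((le_Cz_of_comm hh).trans (Cz_anti h.el.le)), fun y hy => ?_⟩
  refine ((mem_Om_of_class2 h.odd h2).1 (?_ : y ∈ Om p P)).2
  revert y
  show P ≤ Om p P
  conv_lhs => rw [← e]
  rw [commutator_le]
  intro y hy a ha
  have hz := conj_mem_of_mem_normalizer (h.nmA ha) (inv_mem hy)
  have hm : ⁅a * y⁻¹ * a⁻¹, y⁆ ∈ ⁅P, P⁆ := commutator_mem_commutator hz hy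
  have hcz := le_centralizer_iff_commutator_eq_bot.2 h2 hm
  refine (mem_Om_of_class2 h.odd h2).2 ⟨commutator_mem_left hy (h.nmA ha), ?_⟩
  rw [show ⁅y, a⁆ = y * (a * y⁻¹ * a⁻¹) by rw [commutatorElement_def]; group,
    mul_pow_of_class2 h.odd (mem_centralizer_iff.1 hcz y hy) (mem_centralizer_iff.1 hcz _ hz)
      (h.el.eab.2 _ (hMW ▸ h.der_le hm)), conj_pow, inv_pow, h.com (inv_mem (hX y hy)) a]
  group

theorem comm_mul {s a b : G} (hs : s ∈ P) (ha : a ∈ M) (hb : b ∈ M) :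
    ⁅s, a * b⁆ = ⁅s, a⁆ * ⁅s, b⁆ := by
  have := comm_iff.1 h.Mab a ha _ (commutator_mem_right hb (h.nM (le_normalizer hs)))
  rw [commutatorElement_mul_right_eq_mul_conj, mul_assoc ⁅s, a⁆, this]; group

/-- the commutator map with `s` on `M` -/
def nu {s : G} (hs : s ∈ P) : M →* G :=
  MonoidHom.mk' (fun a => ⁅s, (a : G)⁆) fun a b => h.comm_mul hs a.2 b.2

theorem comm_zpow {s a : G} (hs : s ∈ P) (ha : a ∈ M) (i : ℤ) : ⁅s, a ^ i⁆ = ⁅s, a⁆ ^ i :=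
  map_zpow (h.nu hs) ⟨a, ha⟩ i

theorem comm_pow {s a : G} (hs : s ∈ P) (ha : a ∈ M) (i : ℕ) : ⁅s, a ^ i⁆ = ⁅s, a⁆ ^ i :=
  map_pow (h.nu hs) ⟨a, ha⟩ i

theorem big {y : G} (hy : y ∈ M) (hW : y ^ p ∈ W) (hX : y ^ p ∉ zpowers x) {s : G} (hs : s ∈ P)
    (hsM : s ∉ M) : p = 3 ∧ M ⊓ Cx(s) ≤ zpowers x := by
  have hsN : s ∈ Nm(M) := h.nM (le_normalizer hs)
  have cW : ∀ w ∈ W, ⁅s, w⁆ ∈ zpowers x := fun w hw => by
    rw [← commutatorElement_inv]
    exact inv_mem (h.comm_el h.el h.pgrp (le_normalizer.trans h.nW)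
      (commutator_mem_commutator hw hs))
  have cX : ∀ w ∈ zpowers x, ⁅s, w⁆ = 1 := fun w hw =>
    commutatorElement_eq_one_iff_mul_comm.2 (h.com hw s)
  obtain ⟨y1, e1⟩ : ∃ y1, y1 = ⁅s, y⁆ := ⟨_, rfl⟩
  obtain ⟨y2, e2⟩ : ∃ y2, y2 = ⁅s, y1⁆ := ⟨_, rfl⟩
  obtain ⟨y3, e3⟩ : ∃ y3, y3 = ⁅s, y2⁆ := ⟨_, rfl⟩
  have m1 : y1 ∈ M := e1 ▸ commutator_mem_right hy hsN
  have m2 : y2 ∈ M := e2 ▸ commutator_mem_right m1 hsN
  have p1 : y1 ^ p ∈ zpowers x := by rw [e1, ← h.comm_pow hs hy]; exact cW _ hW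
  have p1' : y1 ^ p ≠ 1 := fun e => hX (h.cxX hs hsM hW (by
    rw [e1, ← h.comm_pow hs hy] at e; exact commutatorElement_eq_one_iff_mul_comm.1 e))
  have p2 : y2 ^ p = 1 := by rw [e2, ← h.comm_pow hs m1]; exact cX _ p1
  have m3 : y3 ∈ zpowers x := e3 ▸ cW _ (h.omM m2 p2)
  have m3' : y3 ∈ M := h.WM (h.X_le h.el m3)
  have cm : ∀ {a b}, a ∈ M → b ∈ M → Commute a b := fun ha hb => comm_iff.1 h.Mab _ ha _ hb
  have key : ∀ i : ℕ, s ^ i * y * (s ^ i)⁻¹ = y1 ^ i * y2 ^ i.choose 2 * y3 ^ i.choose 3 * y := by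
    intro i
    induction i with
    | zero => simp
    | succ i ih =>
      have c0 : s * y * s⁻¹ = y1 * y := by rw [e1, commutatorElement_def]; group
      have c1 : s * y1 * s⁻¹ = y2 * y1 := by rw [e2, commutatorElement_def]; group
      have c2 : s * y2 * s⁻¹ = y3 * y2 := by rw [e3, commutatorElement_def]; group
      have c3 : s * y3 * s⁻¹ = y3 := by rw [h.com m3 s]; group
      calc _ = s * (s ^ i * y * (s ^ i)⁻¹) * s⁻¹ := by rw [pow_succ']; group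
        _ = (s * y1 * s⁻¹) ^ i * (s * y2 * s⁻¹) ^ i.choose 2 * (s * y3 * s⁻¹) ^ i.choose 3 *
            (s * y * s⁻¹) := by rw [ih, conj_pow, conj_pow, conj_pow]; group
        _ = _ := by
          rw [c0, c1, c2, c3, (cm m2 m1).mul_pow, (cm m3' m2).mul_pow, Nat.choose_succ_succ' i 1,
            Nat.choose_succ_succ' i 2, Nat.choose_one_right, pow_add y2, pow_add y3, pow_succ y1,
            ← mul_assoc _ y1 y]
          congr 1
          lift y1 to M using m1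
          lift y2 to M using m2
          lift y3 to M using m3'
          haveI := h.Mab
          norm_cast
          simp only [mul_comm, mul_left_comm, mul_assoc]
  have k := key p
  rw [conj_eq_of_mem_centralizer (le_Cz_of_comm h.Mab
    (Phi_le_of_relIndex_prime h.idxM (pow_mem_Phi h.pgrp hs))) hy,
    pow_eq_one_of_dvd p2 (hp.out.dvd_choose_self two_ne_zero
      (lt_of_le_of_ne hp.out.two_le h.odd.symm)), mul_one, eq_comm, mul_eq_right] at k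
  have n3 : y3 ^ p.choose 3 ≠ 1 := fun e => p1' (by rwa [e, mul_one] at k)
  have hp3 : p = 3 := by
    by_contra hne
    have := hp.out.two_le
    have := h.odd
    exact n3 (pow_eq_one_of_dvd (h.pw m3) (dvd_choose_three (by omega)))
  refine ⟨hp3, fun z hz => ?_⟩
  by_contra hzX
  obtain ⟨k, hk⟩ := isPGroup_iff_mem.1 h.Mp z hz.1
  have : ∃ z' ∈ M ⊓ Cx(s), z' ∉ zpowers x ∧ z' ^ p ∈ zpowers x := by
    by_contra hh
    push Not at hh
    have : ∀ i : ℕ, z ^ p ^ i ∉ zpowers x := fun i => by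
      induction i with
      | zero => simpa using hzX
      | succ i ih => rw [pow_succ, pow_mul]; exact hh _ (pow_mem hz _) ih
    exact this k (hk ▸ one_mem _)
  obtain ⟨z, hz, hzX, hzp⟩ := this
  have hz1 : z ^ p ≠ 1 := fun e => hzX (h.cxX hs hsM (h.omM hz.1 e) (mem_Cx.1 hz.2).symm)
  obtain ⟨i, hi⟩ := zpowers_le_of_mem (mem_zpowers_of_mem h.ord hzp hz1) p1
  simp only at hi
  have hzi : z ^ (-i) ∈ M := zpow_mem (mi1 hz) (-i)
  have hw : y1 * z ^ (-i) ∈ W := h.omM (mul_mem m1 hzi) (by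
    rw [(cm m1 hzi).mul_pow, ← hi]; group)
  have := cW _ hw
  rw [h.comm_mul hs m1 hzi, h.comm_zpow hs hz.1,
    commutatorElement_eq_one_iff_mul_comm.2 (mem_Cx.1 hz.2).symm, one_zpow, mul_one, ← e2] at this
  exact n3 (by rw [e3, cX _ this, one_pow])

theorem card_comm {s : G} (hs : s ∈ P) (hsM : s ∉ M) (hc : M ⊓ Cx(s) ≤ zpowers x) {U : Subgroup G}
    (h1 : U ≤ M) (h2 : U ≠ ⊥) (h3 : P ≤ Nm(U)) :
    Nat.card (⁅U, P⁆ : Subgroup G) * p = Nat.card U := by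
  set f := (h.nu hs).comp (inclusion h1) with hf
  have hr : f.range = ⁅U, P⁆ := by
    refine le_antisymm ?_ ?_
    · rintro _ ⟨u, rfl⟩
      show ⁅s, (u : G)⁆ ∈ _
      rw [← commutatorElement_inv]
      exact inv_mem (commutator_mem_commutator u.2 hs)
    · have hle : f.range ≤ M := by
        rintro _ ⟨u, rfl⟩
        exact commutator_mem_right (h1 u.2) (h.nM (le_normalizer hs))
      refine commutator_le_of_le_secCz ?_
      rw [← h.gen hs hsM]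
      refine sup_le (le_secCz (((le_Cz_of_comm h.Mab).trans (Cz_anti hle)).trans (Cz_le_Nm _)) ?_)
        (zpowers_le_of_mem ⟨mem_normalizer_of_conj_mem ?_, fun u hu => ?_⟩)
      · rw [le_centralizer_iff_commutator_eq_bot.1 (h1.trans (le_Cz_of_comm h.Mab))]
        exact bot_le
      · rintro _ ⟨u, rfl⟩
        refine ⟨⟨_, conj_mem_of_mem_normalizer (h3 hs) u.2⟩, ?_⟩
        show ⁅s, s * u * s⁻¹⁆ = s * ⁅s, (u : G)⁆ * s⁻¹
        rw [commutatorElement_def, commutatorElement_def]; group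
      · rw [← commutatorElement_inv]
        exact inv_mem ⟨⟨u, hu⟩, rfl⟩
  have hXU : zpowers x ≤ U := zpowers_le_of_mem (h.x_mem h1 h2 h3)
  have hk : f.ker = (zpowers x).subgroupOf U := by
    ext u
    rw [MonoidHom.mem_ker, mem_subgroupOf]
    show ⁅s, (u : G)⁆ = 1 ↔ _
    rw [commutatorElement_eq_one_iff_mul_comm]
    exact ⟨fun e => hc ⟨h1 u.2, mem_Cx.2 e.symm⟩, fun e => h.com e s⟩
  rw [← hr, ← card_mul_index f.ker, index_ker, hk, card_subgroupOf hXU, h.cardX, mul_comm]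

theorem concl : Concl p P := by
  obtain ⟨k, hk⟩ := IsPGroup.iff_card.1 (h.Mp.to_le h.KM)
  have hM := h.card_M
  have hP := card_eq_mul_of_relIndex h.MP h.idxM
  rw [hk] at hM
  have hk0 : k ≠ 0 := fun e => h.K_ne (card_eq_one.1 (by rw [hk, e, pow_zero]))
  by_cases hk1 : k = 1
  · exact h.small (by rw [hP, hM, hk1]; ring)
  obtain ⟨k, rfl⟩ : ∃ i, k = i + 2 := ⟨k - 2, by omega⟩
  obtain ⟨m, hm⟩ := cyc_iff.1 h.cycK
  have hmK : m ∈ ⁅M, A⁆ := hm ▸ mem_zpowers m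
  have ho : orderOf m = p ^ (k + 2) := by rw [← Nat.card_zpowers, hm, hk]
  obtain ⟨s, hs, hsM⟩ := h.exists_s
  obtain ⟨hp3, hc⟩ := h.big (y := m ^ p ^ k) (h.KM (pow_mem hmK _))
    (h.omM (h.KM (pow_mem (pow_mem hmK _) _)) (by
      rw [← pow_mul, ← pow_mul, ← sq, ← pow_add, ← ho, pow_orderOf_eq_one]))
    (fun hh => h.xK (zpowers_le_of_mem (pow_mem (pow_mem hmK _) _) (mem_zpowers_of_mem h.ord hh (by
      rw [← pow_mul, ← pow_succ, Ne, ← orderOf_dvd_iff_pow_eq_one, ho,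
        Nat.pow_dvd_pow_iff_le_right hp.out.one_lt]; omega)))) hs hsM
  have hPM : P ≤ Nm(M) := le_normalizer.trans h.nM
  have hder : ⁅P, P⁆ = ⁅M, P⁆ := by
    refine le_antisymm ?_ (commutator_mono h.MP le_rfl)
    have hn : P ≤ Nm(⁅M, P⁆) := normalizer_commutator_ge_right M P
    have := der_sup_le (A := M) (B := zpowers s) (N := ⁅M, P⁆) (h.MP.trans hn)
      ((zpowers_le_of_mem hs).trans hn) (commutator_mono le_rfl h.MP)
      (by rw [der_zpowers]; exact bot_le) (commutator_mono le_rfl (zpowers_le_of_mem hs))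
    rwa [h.gen hs hsM] at this
  have key : ∀ i, i + 1 ≤ 2 * (k + 2) → P.lowerCentralSeries (i + 1) ≤ M ∧
      Nat.card (P.lowerCentralSeries (i + 1)) * p ^ (i + 1) = p ^ (2 * (k + 2)) := by
    intro i
    induction i with
    | zero =>
      intro _
      refine ⟨h.der_le, ?_⟩
      show Nat.card (⁅P, P⁆ : Subgroup G) * _ = _
      rw [hder, zero_add, pow_one, h.card_comm hs hsM hc le_rfl
        (ne_bot_of_le h.KM h.K_ne) hPM, hM]; ring
    | succ i ih =>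
      intro hi
      obtain ⟨h1, h2⟩ := ih (by omega)
      refine ⟨(P.lowerCentralSeries_antitone (Nat.le_succ _)).trans h1, ?_⟩
      have hne : P.lowerCentralSeries (i + 1) ≠ ⊥ := fun e => by
        rw [e, card_bot, one_mul, Nat.pow_right_inj hp.out.one_lt] at h2
        omega
      rw [Subgroup.lowerCentralSeries_succ, pow_succ', ← mul_assoc,
        h.card_comm hs hsM hc h1 hne (P.self_le_normalizer_lowerCentralSeries _), h2]
  refine Or.inr ⟨hp3, k + 2, by omega, by rw [hP, hM, hp3]; ring, ?_, fun e => ?_⟩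
  · have := (key (2 * k + 3) (by omega)).2
    rw [show 2 * k + 3 + 1 = 2 * (k + 2) by ring, mul_eq_right₀ (pow_ne_zero _ hp.out.ne_zero)]
      at this
    exact card_eq_one.1 this
  · have := (key (2 * k + 2) (by omega)).2
    rw [show 2 * k + 2 + 1 = 2 * (k + 2) - 1 by omega, e, card_bot, one_mul,
      Nat.pow_right_inj hp.out.one_lt] at this
    omega

end H2

theorem core (h : H0 p x) (hP : SylIn p P ⊤) (hx : x ∈ P) (hd : P ≤ ⁅(⊤ : Subgroup G), ⊤⁆) :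
    Concl p P := by
  obtain ⟨A, -, h2, h3⟩ := exists_complement_of_coprime (N := P) (L := Nm(P)) le_normalizer le_rfl
    (coprime_card_of_isPGroup hP.pgrp (hP.mono le_normalizer le_top).not_dvd_relIndex).symm
  have hA : A ≤ Nm(P) := h2 ▸ le_sup_right
  have h1 : H1 p x P A :=
    { h with
      syl := hP
      mem := hx
      der := hd
      nmA := hA
      cop := h3 ▸ coprime_iff_not_dvd.2 (hP.mono le_normalizer le_top).not_dvd_relIndex
      dec := fun n hn => by rwa [← h2, mem_sup_of_le_Nm' hA] at hn }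
  rcases h.str hP.pgrp with hc | ⟨W, hW, hn⟩ | ⟨D, hD⟩
  · exact absurd (fun y hy _ => le_Cz_of_comm (comm_of_isCyclic hc) hy) h1.not_pc
  · refine H2.concl (A := A) (W := W) (M := P ⊓ Cz(W))
      { h1 with el := hW, nW := hn, eM := rfl, ncen := fun hh => h1.not_pc fun y hy e => ?_ }
    exact le_centralizer_iff.1 hh (h.mem_el hW e (hh hy))
  · exact h1.of_es hD

end CfH5.R2
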