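import Cfsg.Agent.FT.BG4c
import Cfsg.Agent.H9.RankOne
import Cfsg.Agent.H9.Isolated

/-! `p`-groups of rank two with a distinguished central element of order `p`. -/

set_option autoImplicit false
set_option linter.unusedSectionVars false

namespace CfH5.R2

open Cfsg CfH9 CfH7 CfH8 CfH1 CfFT Subgroup
open scoped commutatorElement IsMulCommutative

variable {G : Type*} [Group G] [Finite G] {p : ℕ} [hp : Fact p.Prime]

theorem nI {X A B : Subgroup G} (h1 : X ≤ Nm(A)) (h2 : X ≤ Nm(B)) : X ≤ Nm(A ⊓ B) :=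
  fun _ h => mem_Nm_inf (h1 h) (h2 h)

theorem nS {X A B : Subgroup G} (h1 : X ≤ Nm(A)) (h2 : X ≤ Nm(B)) : X ≤ Nm(A ⊔ B) :=
  fun _ h => mem_Nm_sup (h1 h) (h2 h)

/-- a `p`-group acts trivially on a section of order `p` -/
theorem comm_le_of_idx {W M R : Subgroup G} (hM : M ≤ Nm(W)) (e : W.relIndex M = p)
    (hR : IsPGroup p R) (h1 : R ≤ Nm(M)) (h2 : R ≤ Nm(W)) : ⁅M, R⁆ ≤ W := by
  refine commutator_le_of_le_secCz fun y hy => mem_secCz_of_coprime hM e (h1 hy) (h2 hy) ?_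
  obtain ⟨k, hk⟩ := IsPGroup.iff_orderOf.1 hR ⟨y, hy⟩
  rw [← orderOf_coe] at hk
  simp only at hk
  rw [hk]
  apply Nat.Coprime.pow_left
  have := hp.out.two_le
  exact (Nat.coprime_self_sub_right (by omega : 1 ≤ p)).2 (by simp)

/-- all elements of order `p` are central -/
def PC (p : ℕ) (K : Subgroup G) : Prop := ∀ y ∈ K, y ^ p = 1 → y ∈ Cz(K)

theorem PC.mono {K L : Subgroup G} (h : PC p K) (hle : L ≤ K) : PC p L :=
  fun y hy e => centralizer_le (SetLike.coe_subset_coe.2 hle) (h y (hle hy) e)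

theorem PC.fib (h2 : p ≠ 2) (n : ℕ) : ∀ K : Subgroup G, Nat.card K = n → IsPGroup p K → PC p K →
    ∀ y ∈ K, ∀ z ∈ K, y ^ p = z ^ p → (y * z⁻¹) ^ p = 1 := by
  induction n using Nat.strong_induction_on with
  | _ n ih =>
  intro K hn hK h y hy z hz e
  have key : Commute y ⁅z⁻¹, y⁆ ∧ Commute z⁻¹ ⁅z⁻¹, y⁆ ∧ ⁅z⁻¹, y⁆ ^ p = 1 := by
    have h1 : ⁅z⁻¹, y⁆ ^ p = 1 := by
      rcases (zpowers_le_of_mem hy).eq_or_lt with h0 | h0
      · obtain ⟨i, rfl⟩ : z ∈ zpowers y := h0 ▸ hz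
        have : ⁅(y ^ i)⁻¹, y⁆ = 1 := by
          rw [commutatorElement_eq_one_iff_commute]; exact (Commute.refl y).zpow_left i |>.inv_left
        simp only [this, one_pow]
      · obtain ⟨W, hW1, hW2, hW3⟩ := exists_relIndex_prime_ge hK h0
        have hN := le_Nm_of_relIndex_prime hK hW2 hW3
        have hyW : y ∈ W := hW1 (mem_zpowers y)
        have := ih _ (hn ▸ CfH9.card_lt_of_lt (lt_of_relIndex_prime hW2 hW3)) W rfl (hK.to_le hW2)
          (h.mono hW2) (z⁻¹ * y * z⁻¹⁻¹) (conj_mem_of_mem_normalizer (hN (inv_mem hz)) hyW) y hyW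
          (by rw [conj_pow, e]; group)
        rwa [commutatorElement_def]
    have hm : ⁅z⁻¹, y⁆ ∈ K := by
      rw [commutatorElement_def]
      exact mul_mem (mul_mem (mul_mem (inv_mem hz) hy) (inv_mem (inv_mem hz))) (inv_mem hy)
    have hc := h _ hm h1
    exact ⟨mem_centralizer_iff.1 hc y hy, mem_centralizer_iff.1 hc _ (inv_mem hz), h1⟩
  rw [mul_pow_of_class2 h2 key.1 key.2.1 key.2.2, e, inv_pow, mul_inv_cancel]

theorem PC.mem_Om {K : Subgroup G} (h : PC p K) {y : G} : y ∈ Om p K ↔ y ∈ K ∧ y ^ p = 1 :=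
  mem_Om_of_mul fun a ha b hb e1 e2 => by
    have : Commute a b := mem_centralizer_iff.1 (h b hb e2) a ha
    rw [this.mul_pow, e1, e2, one_mul]

theorem PC.eab {K : Subgroup G} (h : PC p K) : EAb p (Om p K) :=
  ⟨⟨⟨fun a b => Subtype.ext (mem_centralizer_iff.1 (h b (h.mem_Om.1 b.2).1 (h.mem_Om.1 b.2).2) a
    (h.mem_Om.1 a.2).1)⟩⟩, fun _ ha => (h.mem_Om.1 ha).2⟩

theorem PC.exists_pow (h2 : p ≠ 2) (hr : PRankLE p 2 G) {K : Subgroup G} (hK : IsPGroup p K)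
    (h : PC p K) (hc : ¬ Cyc K) {c : G} (hm : c ∈ Phi K) : ∃ y ∈ K, y ^ p = c := by
  classical
  by_contra hne
  push Not at hne
  haveI := Fintype.ofFinite G
  have hO : Nat.card (Om p K) ≤ p ^ 2 := hr _ h.eab.1 h.eab.2
  have hsq := sq_dvd_relIndex_of_le_Phi hK le_rfl (le_Nm_Phi K) hc
  let s : Finset G := Finset.univ.filter (· ∈ K)
  have hs : s.card = Nat.card K := by
    rw [Nat.card_eq_fintype_card, Fintype.card_subtype]
  have h1 : s.card ≤ p ^ 2 * (s.image (· ^ p)).card := by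
    refine Finset.card_le_mul_card_image s _ fun b hb => ?_
    obtain ⟨z, hz, rfl⟩ := Finset.mem_image.1 hb
    have hz' : z ∈ K := (Finset.mem_filter.1 hz).2
    refine le_trans ?_ hO
    rw [Nat.card_eq_fintype_card, Fintype.card_subtype]
    refine Finset.card_le_card_of_injOn (· * z⁻¹) ?_ ?_
    · intro y hy
      simp only [Finset.coe_filter, Finset.mem_filter, Finset.mem_univ, true_and,
        Set.mem_ofPred_eq, s] at hy ⊢
      exact h.mem_Om.2 ⟨mul_mem hy.1 (inv_mem hz'), PC.fib h2 _ K rfl hK h y hy.1 z hz' hy.2⟩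
    · intro a _ b _ e
      exact mul_right_cancel e
  have h3 : (s.image (· ^ p)).card < Nat.card (Phi K) := by
    rw [Nat.card_eq_fintype_card, Fintype.card_subtype]
    refine Finset.card_lt_card ⟨?_, fun hh => ?_⟩
    · intro b hb
      obtain ⟨z, hz, rfl⟩ := Finset.mem_image.1 hb
      simpa using pow_mem_Phi hK (Finset.mem_filter.1 hz).2
    · obtain ⟨z, hz, e⟩ := Finset.mem_image.1 (hh (Finset.mem_filter.2 ⟨Finset.mem_univ c, hm⟩))
      exact hne z (Finset.mem_filter.1 hz).2 e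
  have h4 := card_eq_mul_of_relIndex (Phi_le K) rfl
  have h5 : p ^ 2 ≤ (Phi K).relIndex K :=
    Nat.le_of_dvd (Nat.pos_of_ne_zero fun e => by
      rw [e, zero_mul] at h4; exact Nat.card_pos.ne' h4) hsq
  have h6 : 0 < p ^ 2 := pow_pos hp.out.pos 2
  have : p ^ 2 * (s.image (· ^ p)).card < p ^ 2 * Nat.card (Phi K) := Nat.mul_lt_mul_of_pos_left h3 h6
  have := Nat.mul_le_mul_right (Nat.card (Phi K)) h5
  omega

theorem cop_of {A K : Subgroup G} (hA : (Nat.card A).Coprime p) (hK : IsPGroup p K) :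
    (Nat.card A).Coprime (Nat.card K) := coprime_card_of_isPGroup' hK hA

theorem inf_Cz_le_der {K A : Subgroup G} (hK : IsPGroup p K) (hA : (Nat.card A).Coprime p)
    (hn : A ≤ Nm(K)) (he : ⁅K, A⁆ = K) : K ⊓ Cz(A) ≤ ⁅K, K⁆ := by
  set N : Subgroup G := ⁅K, K⁆ with hN
  have h1 : K ≤ Nm(N) := le_Nm_der K
  have h2 : A ≤ Nm(N) := hn.trans (Nm_le_Nm_der K)
  have h3 : IsMulCommutative (qb N K) := by
    rw [← le_centralizer_iff_isMulCommutative, qb_le_Cz_iff h1 h1]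
  have h4 := commutator_inf_centralizer_eq_bot (A := qb N A) h3 (qb_le_Nm hn)
    (cop_of (Nat.Coprime.coprime_dvd_left (card_qb_dvd h2) hA) (isPGroup_qb hK))
  rw [← qb_commutator h1 h2, he] at h4
  rw [← qb_eq_bot_iff (inf_le_left.trans h1), eq_bot_iff, ← h4]
  refine le_inf (qb_mono inf_le_left) ?_
  rw [qb_le_Cz_iff (inf_le_left.trans h1) h2]
  refine le_trans (le_of_eq ?_) bot_le
  exact le_centralizer_iff_commutator_eq_bot.1 inf_le_right

theorem PC.cent_eq_bot (h2 : p ≠ 2) (hr : PRankLE p 2 G) {K A : Subgroup G} (hK : IsPGroup p K)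
    (h : PC p K) (hA : (Nat.card A).Coprime p) (hn : A ≤ Nm(K)) (he : ⁅K, A⁆ = K) :
    K ⊓ Cz(A) = ⊥ := by
  by_cases hc : Cyc K
  · by_contra hne
    have := le_Cz_of_isCyclic hK hc hA hn hne
    rw [le_centralizer_iff_commutator_eq_bot, commutator_comm, he] at this
    exact hne (by rw [this, bot_inf_eq])
  have step : ∀ c ∈ K ⊓ Cz(A), ∃ y ∈ K ⊓ Cz(A), y ^ p = c := by
    intro c hc'
    obtain ⟨y, hy, e⟩ := h.exists_pow h2 hr hK hc (comm_le_Phi hK (inf_Cz_le_der hK hA hn he hc'))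
    obtain ⟨m, hm, d, hd, e'⟩ := exists_mul_centralizer_of_commutator_mem (A := A) (M := Om p K)
      (hn.trans (CfH7.Nm_le_Nm_omegaOne K)) (cop_of hA (elemAb_isPGroup h.eab))
      (Or.inr (isSolvable_of_comm h.eab.1)) (x := y) (fun a ha => by
        have hay := conj_mem_of_mem_normalizer (hn ha) hy
        refine h.mem_Om.2 ⟨?_, ?_⟩
        · rw [commutatorElement_def, mul_assoc, mul_assoc, ← mul_assoc a]
          have := conj_mem_of_mem_normalizer (hn ha) (inv_mem hy)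
          exact mul_mem hy this
        · have := PC.fib h2 _ K rfl hK h y hy _ hay (by
            rw [conj_pow, e, mem_centralizer_iff.1 hc'.2 a ha]; group)
          rw [← this, commutatorElement_def]; congr 1; group)
    have hm' := h.mem_Om.1 hm
    have hdK : d ∈ K := (mul_mem_cancel_left hm'.1).1 (e' ▸ hy)
    refine ⟨d, ⟨hdK, hd⟩, ?_⟩
    have : Commute m d := (mem_centralizer_iff.1 (h m hm'.1 hm'.2) d hdK).symm
    rw [← e, e', this.mul_pow, hm'.2, one_mul]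
  have step' : ∀ n : ℕ, ∀ c ∈ K ⊓ Cz(A), ∃ y ∈ K ⊓ Cz(A), y ^ p ^ n = c := by
    intro n
    induction n with
    | zero => exact fun c hc => ⟨c, hc, by simp⟩
    | succ n ih =>
      intro c hc
      obtain ⟨y, hy, rfl⟩ := ih c hc
      obtain ⟨z, hz, rfl⟩ := step y hy
      exact ⟨z, hz, by rw [← pow_mul, pow_succ']⟩
  obtain ⟨n, hn'⟩ := IsPGroup.iff_card.1 hK
  rw [eq_bot_iff]
  intro c hc
  obtain ⟨y, hy, rfl⟩ := step' n c hc
  rw [mem_bot, ← hn']
  exact pow_card_eq_one_of_mem hy.1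

/-- the standing hypothesis: `x` is a central element of odd prime order `p`, `p`-rank `≤ 2` -/
structure H0 (p : ℕ) (x : G) : Prop where
  odd : p ≠ 2
  rk : PRankLE p 2 G
  ord : orderOf x = p
  cen : ∀ g, g * x = x * g

/-- `Q` is a central product of the extraspecial group `D = Ω₁(Q)` with its centre -/
structure ES (p : ℕ) (x : G) (Q D : Subgroup G) : Prop where
  le : D ≤ Q
  mem : ∀ y ∈ Q, y ^ p = 1 ↔ y ∈ D
  card : Nat.card D = p ^ 3
  comm : ⁅D, Q⁆ ≤ zpowers x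
  dec : ∀ y ∈ Q, ∃ d ∈ D, ∃ z ∈ Q ⊓ Cz(Q), y = d * z

theorem mem_zpowers_of_mem {a b : G} (ha : orderOf a = p) (hb : b ∈ zpowers a) (h1 : b ≠ 1) :
    a ∈ zpowers b := by
  have h := zpowers_le_of_mem hb
  have hc : Nat.card (zpowers b) ∣ p := by
    have := card_dvd_of_le h
    rwa [Nat.card_zpowers a, ha] at this
  rcases (Nat.dvd_prime hp.out).1 hc with e | e
  · exact absurd (card_eq_one.1 e) (zpowers_ne_bot' h1)
  · rw [eq_of_le_of_card_ge h (by rw [e, Nat.card_zpowers, ha])]; exact mem_zpowers a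

namespace H0

variable {x : G} (h : H0 p x) {W E R Q D : Subgroup G}
include h

theorem xp : x ^ p = 1 := pow_eq_one_of_orderOf h.ord
theorem ne : x ≠ 1 := ne_one_of_orderOf_eq_prime h.ord
theorem cardX : Nat.card (zpowers x) = p := by rw [Nat.card_zpowers, h.ord]
theorem cz (A : Subgroup G) : x ∈ Cz(A) := mem_centralizer_iff.2 fun g _ => h.cen g
theorem czX (A : Subgroup G) : zpowers x ≤ Cz(A) := zpowers_le_of_mem (h.cz A)
theorem leCz (A : Subgroup G) : A ≤ Cz(zpowers x) := le_centralizer_iff.1 (h.czX A)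
theorem nm (A : Subgroup G) : A ≤ Nm(zpowers x) := (h.leCz A).trans (Cz_le_Nm _)
theorem com {y : G} (hy : y ∈ zpowers x) (g : G) : g * y = y * g :=
  mem_centralizer_iff.1 (h.czX ⊤ hy) g trivial
theorem pw {y : G} (hy : y ∈ zpowers x) : y ^ p = 1 := (CfH9.elemAb_zpowers h.xp).2 y hy

theorem mem_el (hW : El p 2 W E) {y : G} (e : y ^ p = 1) (hc : y ∈ Cz(W)) : y ∈ W :=
  mem_of_pRankLE h.rk hW.eab hW.card.ge e hc

theorem X_le (hW : El p 2 W E) : zpowers x ≤ W :=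
  zpowers_le_of_mem (h.mem_el hW h.xp (h.cz W))

theorem idx (hW : El p 2 W E) : (zpowers x).relIndex W = p :=
  relIndex_eq_of_card (h.X_le hW) (by rw [hW.card, h.cardX, sq])

theorem comm_el (hW : El p 2 W E) (hR : IsPGroup p R) (hn : R ≤ Nm(W)) : ⁅W, R⁆ ≤ zpowers x :=
  comm_le_of_idx (h.nm W) (h.idx hW) hR hn (h.nm R)

theorem gen_el (hW : El p 2 W E) {a : G} (ha : a ∈ W) (hn : a ∉ zpowers x) :
    zpowers x ⊔ zpowers a = W :=
  sup_eq_of_relIndex_prime (h.X_le hW) (h.idx hW) (zpowers_le_of_mem ha)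
    fun hh => hn (hh (mem_zpowers a))

theorem exists_el (hW : El p 2 W E) : ∃ a ∈ W, a ∉ zpowers x := by
  by_contra hh
  push Not at hh
  exact not_le_of_relIndex_prime (h.idx hW) hh

theorem cz_el (hW : El p 2 W E) {a y : G} (ha : a ∈ W) (hn : a ∉ zpowers x)
    (hy : y * a = a * y) : y ∈ Cz(W) := by
  rw [← h.gen_el hW ha hn, Cz_sup, Cz_zpowers a]
  exact ⟨h.leCz ⊤ trivial, mem_Cx.2 hy⟩

/-- a `p`-group whose elements of order `p` lie in a proper subgroup of `W` is cyclic -/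
theorem cyc (hW : El p 2 W E) {K U : Subgroup G} (hK : IsPGroup p K) (hU : U < W)
    (hm : ∀ y ∈ K, y ^ p = 1 → y ∈ U) : Cyc K := by
  by_contra hc
  obtain ⟨T, hT⟩ := exists_el_two_of_not_cyc h.odd hK hc
  have h1 : T ≤ U := fun y hy => hm y (hT.le hy) (hT.eab.2 y hy)
  have := card_le_of_le h1
  have := CfH9.card_lt_of_lt hU
  rw [hT.card] at *
  rw [hW.card] at *
  omega

theorem not_ab (hD : Nat.card D = p ^ 3) (he : ∀ y ∈ D, y ^ p = 1) : ¬ Ab D := fun hh => by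
  have := h.rk D hh he
  rw [hD, Nat.pow_le_pow_iff_right hp.out.one_lt] at this
  omega

theorem comm_mul_left {a y z : G} (hz : ⁅z, a⁆ ∈ zpowers x) : ⁅y * z, a⁆ = ⁅y, a⁆ * ⁅z, a⁆ := by
  rw [commutatorElement_mul_left_eq_conj_mul, mul_assoc y, ← h.com hz, h.com hz ⁅y, a⁆]; group

theorem comm_zpow_left {a z : G} (hz : ⁅z, a⁆ ∈ zpowers x) (i : ℤ) : ⁅z ^ i, a⁆ = ⁅z, a⁆ ^ i := by
  have hc : Commute z ⁅z, a⁆ := h.com hz z
  have e : a * z⁻¹ * a⁻¹ = z⁻¹ * ⁅z, a⁆ := by rw [commutatorElement_def]; group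
  have : ⁅z ^ i, a⁆ = z ^ i * (a * z⁻¹ * a⁻¹) ^ i := by
    rw [conj_zpow, commutatorElement_def]; group
  rw [this, e, hc.inv_left.mul_zpow]; group

theorem str (hQ : IsPGroup p Q) :
    Cyc Q ∨ (∃ W, El p 2 W Q ∧ Nm(Q) ≤ Nm(W)) ∨ ∃ D, ES p x Q D := by
  by_cases hc : Cyc Q
  · exact Or.inl hc
  obtain ⟨W, hW, hn⟩ := exists_normal_el_two_self h.odd hQ hc
  by_cases hi : Nm(Q) ≤ Nm(W)
  · exact Or.inr (Or.inl ⟨W, hW, hi⟩)
  right; right
  obtain ⟨n, hnQ, hnW⟩ := SetLike.not_le_iff_exists.1 hi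
  set V := cj n W with hV0
  have hV : El p 2 V Q := by have := hW.cj n; rwa [cj_eq_of_mem_normalizer hnQ] at this
  have hnV : Q ≤ Nm(V) := by
    rw [hV0, ← cj_normalizer, ← cj_eq_of_mem_normalizer hnQ]; exact cj_mono n hn
  have hne : ¬ V ≤ W := fun hh => hnW (mem_normalizer_of_cj_le hh)
  have hne' : ¬ W ≤ V := fun hh =>
    hne (eq_of_le_of_card_ge hh (by rw [hV.card, hW.card])).ge
  obtain ⟨b, hb, hbW⟩ := SetLike.not_le_iff_exists.1 hne
  obtain ⟨a, ha, haV⟩ := SetLike.not_le_iff_exists.1 hne'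
  have haX : a ∉ zpowers x := fun hh => haV (h.X_le hV hh)
  have hbX : b ∉ zpowers x := fun hh => hbW (h.X_le hW hh)
  have cW : ∀ y ∈ Q, ∀ w ∈ W, ⁅y, w⁆ ∈ zpowers x := fun y hy w hw => by
    have := h.comm_el hW hQ hn
    rw [commutator_comm] at this
    exact this (commutator_mem_commutator hy hw)
  have cV : ∀ y ∈ Q, ∀ w ∈ V, ⁅y, w⁆ ∈ zpowers x := fun y hy w hw => by
    have := h.comm_el hV hQ hnV
    rw [commutator_comm] at this
    exact this (commutator_mem_commutator hy hw)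
  have hab : ⁅b, a⁆ ≠ 1 := fun e => hbW (h.mem_el hW (hV.eab.2 b hb)
    (h.cz_el hW ha haX (commutatorElement_eq_one_iff_mul_comm.1 e)))
  have hba : ⁅a, b⁆ ≠ 1 := fun e => hab (by rw [← commutatorElement_inv, e, inv_one])
  have hinf : W ⊓ V = zpowers x := by
    rcases eq_or_eq_of_relIndex_prime (h.idx hW) (le_inf (h.X_le hW) (h.X_le hV)) inf_le_left
      with e | e
    · exact e
    · exact absurd (e ▸ inf_le_right) hne'
  have hDQ : W ⊔ V ≤ Q := sup_le hW.le hV.le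
  have hcomm : ⁅W ⊔ V, Q⁆ ≤ zpowers x :=
    commutator_sup_left_le (h.nm _) (h.nm _) (h.comm_el hW hQ hn) (h.comm_el hV hQ hnV)
  have hexp : ∀ y ∈ W ⊔ V, y ^ p = 1 := by
    have h2 : ⁅⁅W ⊔ V, W ⊔ V⁆, W ⊔ V⁆ = ⊥ := by
      rw [← le_centralizer_iff_commutator_eq_bot]
      exact ((commutator_mono le_rfl hDQ).trans hcomm).trans (h.czX _)
    intro y hy
    have : W ⊔ V ≤ Om p (W ⊔ V) :=
      sup_le (hW.mono le_sup_left).le_Om (hV.mono le_sup_right).le_Om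
    exact ((mem_Om_of_class2 h.odd h2).1 (this hy)).2
  have hZ : ∀ z ∈ Q ⊓ Cz(W ⊔ V), z ^ p = 1 → z ∈ zpowers x := fun z hz e => by
    rw [← hinf]
    exact ⟨h.mem_el hW e (Cz_anti le_sup_left hz.2), h.mem_el hV e (Cz_anti le_sup_right hz.2)⟩
  have hZc : Cyc (Q ⊓ Cz(W ⊔ V) : Subgroup G) :=
    h.cyc hW (hQ.to_le inf_le_left) (lt_of_relIndex_prime (h.X_le hW) (h.idx hW)) hZ
  have dec : ∀ y ∈ Q, ∃ d ∈ W ⊔ V, ∃ z ∈ Q ⊓ Cz(W ⊔ V), y = d * z := by
    intro y hy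
    have hxa := mem_zpowers_of_mem h.ord (cW b (hV.le hb) a ha) hab
    have hxb := mem_zpowers_of_mem h.ord (cV a (hW.le ha) b hb) hba
    obtain ⟨j, hj⟩ := zpowers_le_of_mem hxa (cW y hy a ha)
    obtain ⟨i, hi⟩ := zpowers_le_of_mem hxb (cV y hy b hb)
    simp only at hi hj
    have hd : a ^ i * b ^ j ∈ W ⊔ V :=
      mul_mem (mem_sup_left (zpow_mem ha i)) (mem_sup_right (zpow_mem hb j))
    have hdi := inv_mem (hDQ hd)
    refine ⟨_, hd, (a ^ i * b ^ j)⁻¹ * y, ⟨mul_mem hdi hy, ?_⟩, by group⟩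
    have e1 : ⁅a ^ i * b ^ j, a⁆ = ⁅y, a⁆ := by
      rw [h.comm_mul_left (cW _ (hV.le (zpow_mem hb j)) a ha),
        h.comm_zpow_left (cW b (hV.le hb) a ha), hj,
        h.comm_zpow_left (cW a (hW.le ha) a ha), commutatorElement_self, one_zpow, one_mul]
    have e2 : ⁅a ^ i * b ^ j, b⁆ = ⁅y, b⁆ := by
      rw [h.comm_mul_left (cV _ (hV.le (zpow_mem hb j)) b hb),
        h.comm_zpow_left (cV a (hW.le ha) b hb), hi,
        h.comm_zpow_left (cV b (hV.le hb) b hb), commutatorElement_self, one_zpow, mul_one]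
    have key : ∀ d c : G, ⁅d, c⁆ = ⁅y, c⁆ → d⁻¹ * y * c = c * (d⁻¹ * y) := by
      intro d c e
      rw [commutatorElement_def, commutatorElement_def, mul_left_inj] at e
      calc d⁻¹ * y * c = d⁻¹ * (y * c * y⁻¹) * y := by group
        _ = _ := by rw [← e]; group
    rw [SetLike.mem_coe, Cz_sup]
    exact ⟨h.cz_el hW ha haX (key _ _ e1), h.cz_el hV hb hbX (key _ _ e2)⟩
  have hZQ : Q ⊓ Cz(W ⊔ V) ≤ Q ⊓ Cz(Q) := fun z hz => ⟨hz.1, mem_centralizer_iff.2 fun y hy => by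
    obtain ⟨d, hd, z', hz', rfl⟩ := dec y hy
    rw [mul_assoc, comm_iff.1 (comm_of_isCyclic hZc) z' hz' z hz, ← mul_assoc,
      mem_centralizer_iff.1 hz.2 d hd, mul_assoc]⟩
  refine ⟨W ⊔ V, hDQ, fun y hy => ⟨fun e => ?_, hexp y⟩, ?_, hcomm, fun y hy => ?_⟩
  · obtain ⟨d, hd, z, hz, rfl⟩ := dec y hy
    have hc : Commute d z := mem_centralizer_iff.1 hz.2 d hd
    rw [hc.mul_pow, hexp d hd, one_mul] at e
    exact mul_mem hd (mem_sup_left (h.X_le hW (hZ z hz e)))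
  · have := CfH9.card_sup_mul_card_inf (hW.le.trans hnV)
    rw [hinf, h.cardX, hW.card, hV.card] at this
    apply Nat.eq_of_mul_eq_mul_right hp.out.pos
    rw [this]; ring
  · obtain ⟨d, hd, z, hz, e⟩ := dec y hy
    exact ⟨d, hd, z, hZQ hz, e⟩

end H0

end CfH5.R2
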