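import Cfsg.Agent.R2.A

/-! Essential subgroups of a Sylow subgroup of rank two with a central element of order `p`. -/

set_option autoImplicit false
set_option linter.unusedSectionVars false

namespace CfH5.R2

open Cfsg CfH9 CfH7 CfH8 CfH1 CfFT Subgroup
open scoped commutatorElement IsMulCommutative

variable {G : Type*} [Group G] [Finite G] {p : ℕ} [hp : Fact p.Prime]

/-- `N(Q)` is generated by `C(Q)` and normalizers of larger subgroups -/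
def NE (P Q : Subgroup G) : Prop :=
  ∀ M : Subgroup G, ⊤ ⊓ Cz(Q) ≤ M → (∀ U, Q < U → U ≤ P ⊓ Nm(Q) → ⊤ ⊓ Nm(Q) ⊓ Nm(U) ≤ M) →
    ⊤ ⊓ Nm(Q) ≤ M

structure Ess (p : ℕ) (P Q : Subgroup G) : Prop where
  lt : Q < P
  syl : SylIn p (P ⊓ Nm(Q)) (⊤ ⊓ Nm(Q))
  cen : P ⊓ Cz(Q) ≤ Q
  ne : ¬ NE P Q

variable {P Q N W D Y : Subgroup G} {x : G}

theorem ne_of (hs : SylIn p (P ⊓ Nm(Q)) (⊤ ⊓ Nm(Q))) (hQP : Q ≤ P) (h1 : N ≤ Nm(Q))
    (h2 : Nm(Q) ≤ Nm(N)) (h3 : Q ≤ N) (h4 : pResidualOf p N ≤ Cz(Q))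
    (h5 : ¬ P ⊓ Nm(Q) ⊓ N ≤ Q) : NE P Q := by
  intro M hC hU n hn
  have hS : SylIn p (P ⊓ Nm(Q) ⊓ N) N :=
    hs.inf_normal' (inf_le_right.trans h2) (le_inf le_top h1)
  have hlt : Q < P ⊓ Nm(Q) ⊓ N :=
    lt_of_le_not_ge (le_inf (le_inf hQP le_normalizer) h3) h5
  have hU' := hU _ hlt inf_le_left
  obtain ⟨k, hk, m, hm, rfl⟩ := hS.frattini (h2 hn.2)
  obtain ⟨s, hs', r, hr, rfl⟩ := hS.exists_mul_pResidualOf hk
  have hmQ : m ∈ Nm(Q) := (mul_mem_cancel_left (h1 hk)).1 hn.2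
  exact mul_mem (mul_mem (hU' ⟨⟨trivial, hs'.1.2⟩, le_normalizer hs'⟩) (hC ⟨trivial, h4 hr⟩))
    (hU' ⟨⟨trivial, hmQ⟩, hm⟩)

theorem ext (hP : SylIn p P ⊤) (m : ℕ) (hm : ∀ Q, Ess p P Q → Nat.card Q ≤ m) (hQ : Q ≤ P)
    (hc : m < Nat.card Q) {g : G} (hg : cj g Q ≤ P) :
    ∃ n ∈ Nm(P), ∀ a ∈ Q, g * a * g⁻¹ = n * a * n⁻¹ := by
  refine alperin_ind' hP
    (fun Q g => m < Nat.card Q → ∃ n ∈ Nm(P), ∀ a ∈ Q, g * a * g⁻¹ = n * a * n⁻¹)
    ?_ ?_ ?_ ?_ Q hQ g trivial hg hc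
  · intro Q Q' g h1 _ _ _ h2 h3
    obtain ⟨n, hn, e⟩ := h2 (h3.trans_le (card_le_of_le h1))
    exact ⟨n, hn, fun a ha => e a (h1 ha)⟩
  · intro Q g k _ _ _ _ _ h1 h2 h3
    obtain ⟨n, hn, e⟩ := h1 h3
    obtain ⟨n', hn', e'⟩ := h2 (by rwa [card_cj])
    refine ⟨n' * n, mul_mem hn' hn, fun a ha => ?_⟩
    have := e' _ (conj_mem_cj g ha)
    calc k * g * a * (k * g)⁻¹ = k * (g * a * g⁻¹) * k⁻¹ := by group
      _ = _ := by rw [this, e a ha]; group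
  · intro Q _ c _ hc _
    exact ⟨1, one_mem _, fun a ha => by rw [conj_eq_of_mem_centralizer hc ha]; group⟩
  · intro Q hQ hs hcen M hM h1 h2
    rcases hQ.eq_or_lt with rfl | hlt
    · exact fun n hn => (hM n).2 ⟨trivial, hn.2, fun _ => ⟨n, hn.2, fun _ _ => rfl⟩⟩
    by_cases hne : NE P Q
    · exact hne M h1 h2
    · exact fun n hn => (hM n).2 ⟨trivial, hn.2, fun hh =>
        absurd (hm Q ⟨hlt, hs, hcen, hne⟩) (by omega)⟩

theorem foc_le (hP : SylIn p P ⊤) (hd : P ≤ ⁅(⊤ : Subgroup G), ⊤⁆)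
    (h1 : ∀ a ∈ P, ∀ n ∈ Nm(P), a⁻¹ * (n * a * n⁻¹) ∈ Y)
    (h2 : ∀ Q, Ess p P Q → ∀ a ∈ Q, ∀ n ∈ Nm(Q), a⁻¹ * (n * a * n⁻¹) ∈ Y) : P ≤ Y := by
  have key := alperin_ind' hP (fun Q g => ∀ a ∈ Q, a⁻¹ * (g * a * g⁻¹) ∈ Y) ?_ ?_ ?_ ?_
  · have e := focal hP
    rw [inf_eq_left.2 hd] at e
    rw [e, foc_le_iff]
    intro a ha u _ hu
    refine key (zpowers a) (zpowers_le_of_mem ha) u trivial ?_ a (mem_zpowers a)
    rw [cj_zpowers]; exact zpowers_le_of_mem hu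
  · intro Q Q' g h1 _ _ _ h2 a ha
    exact h2 a (h1 ha)
  · intro Q g k _ _ _ _ _ h1 h2 a ha
    have := mul_mem (h1 a ha) (h2 _ (conj_mem_cj g ha))
    convert this using 1; group
  · intro Q _ c _ hc a ha
    rw [conj_eq_of_mem_centralizer hc ha, inv_mul_cancel]; exact one_mem _
  · intro Q hQ hs hcen M hM h3 h4
    rcases hQ.eq_or_lt with rfl | hlt
    · exact fun n hn => (hM n).2 ⟨trivial, hn.2, fun a ha => h1 a ha n hn.2⟩
    by_cases hne : NE P Q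
    · exact hne M h3 h4
    · exact fun n hn => (hM n).2 ⟨trivial, hn.2, fun a ha => h2 Q ⟨hlt, hs, hcen, hne⟩ a ha n hn.2⟩

theorem res_le_Cz (h2 : p ≠ 2) (hQ : IsPGroup p Q) (h1 : N ≤ Nm(Q))
    (h : ∀ y ∈ Q, y ^ p = 1 → y ∈ Cz(pResidualOf p N)) : pResidualOf p N ≤ Cz(Q) := by
  rw [pResidualOf_le_iff]
  intro g hg ho
  refine mem_Cz_of_omega hQ (h1 hg) ho fun y hy e => ?_
  rcases e with e | e
  · exact mem_centralizer_iff.1 (h y hy e) g (mem_pResidualOf hg ho)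
  · exact absurd e.1 h2

theorem comm_le_inf_Cz {B : Subgroup G} (h1 : B ≤ Nm(Q)) (h2 : Q ≤ Nm(W)) (h3 : B ≤ Cz(W)) :
    ⁅Q, B⁆ ≤ Q ⊓ Cz(W) := by
  have hb : ∀ A : Subgroup G, A ≤ Nm((⊥ : Subgroup G)) := fun A g _ => mem_Nm_of_normal g ⊥
  refine le_inf (commutator_le_left_of_le_normalizer h1) ?_
  rw [le_centralizer_iff_commutator_eq_bot, eq_bot_iff]
  refine CfH7.three_subgroups (hb _) (hb _) (hb _) ?_ ?_
  · rw [le_centralizer_iff_commutator_eq_bot.1 h3]; simp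
  · refine (commutator_mono (commutator_le_left_of_le_normalizer h2) le_rfl).trans (le_of_eq ?_)
    exact le_centralizer_iff_commutator_eq_bot.1 (le_centralizer_iff.1 h3)

theorem conj_zpow_eq {H : Type*} [Group H] {u a c : H} (h1 : u * a * u⁻¹ = c * a)
    (h2 : Commute u c) (e : ℤ) : u ^ e * a * (u ^ e)⁻¹ = c ^ e * a := by
  have h3 : a * u * a⁻¹ = c⁻¹ * u := by
    calc _ = c⁻¹ * (c * a) * u * a⁻¹ := by group
      _ = _ := by rw [← h1]; group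
  have h4 : a * u ^ e * a⁻¹ = (c ^ e)⁻¹ * u ^ e := by
    rw [← conj_zpow, h3, h2.symm.inv_left.mul_zpow, inv_zpow]
  calc _ = c ^ e * ((c ^ e)⁻¹ * u ^ e) * a * (u ^ e)⁻¹ := by group
    _ = _ := by rw [← h4]; group

theorem sl2_neg {H : Type*} [Group H] {a b r s : H} (hab : a * b = b * a)
    (h1 : r * a * r⁻¹ = a) (h2 : r * b * r⁻¹ = a * b) (h3 : s * b * s⁻¹ = b)
    (h4 : s * a * s⁻¹ = b⁻¹ * a) :
    (r * s * r) ^ 2 * a * ((r * s * r) ^ 2)⁻¹ = a⁻¹ ∧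
      (r * s * r) ^ 2 * b * ((r * s * r) ^ 2)⁻¹ = b⁻¹ := by
  have e1 : (r * s * r) * a * (r * s * r)⁻¹ = b⁻¹ := by
    calc _ = r * (s * (r * a * r⁻¹) * s⁻¹) * r⁻¹ := by group
      _ = r * (b⁻¹ * a) * r⁻¹ := by rw [h1, h4]
      _ = (r * b * r⁻¹)⁻¹ * (r * a * r⁻¹) := by group
      _ = _ := by rw [h1, h2]; group
  have e2 : (r * s * r) * b * (r * s * r)⁻¹ = a := by
    calc _ = r * (s * (r * b * r⁻¹) * s⁻¹) * r⁻¹ := by group
      _ = r * ((s * a * s⁻¹) * (s * b * s⁻¹)) * r⁻¹ := by rw [h2]; group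
      _ = r * a * r⁻¹ := by rw [h3, h4, mul_assoc b⁻¹, hab]; group
      _ = _ := h1
  generalize r * s * r = w at e1 e2
  constructor
  · calc _ = w * (w * a * w⁻¹) * w⁻¹ := by rw [sq]; group
      _ = (w * b * w⁻¹)⁻¹ := by rw [e1]; group
      _ = _ := by rw [e2]
  · calc _ = w * (w * b * w⁻¹) * w⁻¹ := by rw [sq]; group
      _ = _ := by rw [e2, e1]

namespace ES

variable (hD : ES p x Q D)
include hD

theorem exp {y : G} (hy : y ∈ D) : y ^ p = 1 := (hD.mem y (hD.le hy)).2 hy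

theorem nm : Nm(Q) ≤ Nm(D) := fun n hn => mem_normalizer_of_conj_mem fun y hy =>
  (hD.mem _ (conj_mem_of_mem_normalizer hn (hD.le hy))).1 (by
    rw [conj_pow, hD.exp hy]; group)

theorem pgrp : IsPGroup p D := IsPGroup.of_card hD.card

theorem el_le (hW : El p 2 W Q) : W ≤ D := fun y hy => (hD.mem y (hW.le hy)).1 (hW.eab.2 y hy)

theorem idx (hW : El p 2 W Q) : W.relIndex D = p :=
  relIndex_eq_of_card (hD.el_le hW) (by rw [hD.card, hW.card]; ring)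

theorem zc (h : H0 p x) {z : G} (hz : z ∈ Q ⊓ Cz(Q)) (e : z ^ p = 1) : z ∈ zpowers x := by
  by_contra hn
  have hE : EAb p (zpowers x ⊔ zpowers z : Subgroup G) :=
    eab_sup_zpowers (CfH9.elemAb_zpowers h.xp) e (h.leCz ⊤ trivial)
  have hc := sq_le_card_sup_zpowers e h.ord hn (mem_Cx.2 (h.cen z))
  have : D ≤ zpowers x ⊔ zpowers z := fun y hy => mem_of_pRankLE h.rk hE hc (hD.exp hy) (by
    rw [Cz_sup, Cz_zpowers z]
    exact ⟨h.leCz ⊤ trivial, mem_Cx.2 (mem_centralizer_iff.1 hz.2 y (hD.le hy))⟩)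
  exact h.not_ab hD.card (fun _ => hD.exp) (comm_of_le this hE.1)

theorem X_le (h : H0 p x) (hx : x ∈ Q) : zpowers x ≤ D :=
  zpowers_le_of_mem ((hD.mem x hx).1 h.xp)

end ES

namespace Ess

variable (h : H0 p x) (hP : SylIn p P ⊤) (hx : x ∈ P) (hE : Ess p P Q)
include h hP hx hE

theorem pgrp : IsPGroup p Q := hP.pgrp.to_le hE.lt.le

theorem x_mem : x ∈ Q := hE.cen ⟨hx, h.cz Q⟩

theorem lt' : Q < P ⊓ Nm(Q) := lt_inf_Nm hP.pgrp hE.lt

theorem not_inv (hW : El p 2 W Q) : ¬ Nm(Q) ≤ Nm(W) := by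
  intro hn
  have hQ := hE.pgrp h hP hx
  have hRp : IsPGroup p (P ⊓ Nm(Q) : Subgroup G) := hP.pgrp.to_le inf_le_left
  have hR : P ⊓ Nm(Q) ≤ Nm(Q) ⊓ secCz W (zpowers x) :=
    le_inf inf_le_right (le_secCz (h.nm _) (h.comm_el hW hRp (inf_le_right.trans hn)))
  set N := Nm(Q) ⊓ secCz W (zpowers x)
  have h1 : pResidualOf p N ≤ Cz(W) :=
    pResidualOf_le_Cz_of_le hW.pgrp (inf_le_left.trans hn)
      (commutator_le_of_le_secCz inf_le_right) (h.leCz _)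
  have h2 : pResidualOf p N ≤ Cz(Q ⊓ Cz(W)) := by
    refine res_le_Cz h.odd (hQ.to_le inf_le_left)
      (nI inf_le_left ((inf_le_left.trans hn).trans (Nm_le_Nm_Cz W))) fun y hy e => ?_
    exact le_centralizer_iff.1 h1 (h.mem_el hW e hy.2)
  have hrN : pResidualOf p N ≤ Nm(Q) := (pResidualOf_le N).trans inf_le_left
  have h3 := comm_le_inf_Cz hrN (le_normalizer.trans hn) h1
  have h4 := pResidualOf_le_Cz_of_le (p := p) hQ hrN h3 h2
  rw [pResidualOf_pResidualOf] at h4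
  refine hE.ne (ne_of hE.syl hE.lt.le inf_le_left
    (nI le_normalizer (le_Nm_secCz hn (h.nm _))) ((hE.lt' h hP hx).le.trans hR) h4 ?_)
  rw [inf_eq_left.2 hR]
  exact (hE.lt' h hP hx).not_ge

theorem es : ∃ D, ES p x Q D := by
  have hQ := hE.pgrp h hP hx
  rcases h.str hQ with hc | ⟨W, hW, hn⟩ | hD
  · refine absurd (ne_of hE.syl hE.lt.le le_rfl le_normalizer le_normalizer ?_ ?_) hE.ne
    · rw [pResidualOf_le_iff]
      exact fun g hg ho => mem_Cz_of_isCyclic hQ hc ho hg (hE.x_mem h hP hx) h.ne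
        (mem_Cx.2 (h.cen g))
    · rw [inf_assoc, inf_idem]; exact (hE.lt' h hP hx).not_ge
  · exact absurd hn (hE.not_inv h hP hx hW)
  · exact hD

/-- the normalizer of an essential subgroup centralizes its centre when that is central in `P` -/
theorem cz_center (hD : ES p x Q D) (hZ : Q ⊓ Cz(Q) ≤ Cz(P)) : Nm(Q) ≤ Cz(Q ⊓ Cz(Q)) := by
  intro n hn
  obtain ⟨s, hs, r, hr, rfl⟩ := hE.syl.exists_mul_pResidualOf (g := n) ⟨trivial, hn⟩
  refine mul_mem (le_centralizer_iff.1 hZ hs.1) (res_le_Cz h.odd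
    ((hE.pgrp h hP hx).to_le inf_le_left) (nI inf_le_right (inf_le_right.trans (Nm_le_Nm_Cz Q)))
    (fun y hy e => h.czX _ (hD.zc h hy e)) hr)

theorem exists_t (hD : ES p x Q D) (hW : El p 2 W Q) (hn : P ⊓ Nm(Q) ≤ Nm(W)) :
    ∃ t ∈ Nm(Q) ⊓ Nm(P ⊓ Nm(Q)), ∀ d ∈ D, t * d * t⁻¹ * d ∈ W := by
  have hQ := hE.pgrp h hP hx
  set R := P ⊓ Nm(Q) with hR0
  have hRp : IsPGroup p R := hP.pgrp.to_le inf_le_left
  haveI hXn : (zpowers x).Normal := normal_iff_top_le_Nm.2 (h.nm ⊤)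
  set f := QuotientGroup.mk' (zpowers x) with hf
  have memX : ∀ y, f y = 1 ↔ y ∈ zpowers x := fun y => QuotientGroup.eq_one_iff y
  have cX : ∀ d k, ⁅d, k⁆ ∈ zpowers x ↔ f d * f k = f k * f d := fun d k => by
    rw [← memX, map_commutatorElement, commutatorElement_eq_one_iff_mul_comm]
  have hDX : ⁅D, Q⁆ ≤ zpowers x := hD.comm
  have h0 : R ⊓ (Nm(Q) ⊓ secCz D (zpowers x)) ≤ Q := by
    by_contra hh
    refine hE.ne (ne_of hE.syl hE.lt.le inf_le_left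
      (nI le_normalizer (le_Nm_secCz hD.nm (h.nm _)))
      (le_inf le_normalizer (le_secCz (h.nm _) hDX)) ?_ hh)
    have h1 : pResidualOf p (Nm(Q) ⊓ secCz D (zpowers x)) ≤ Cz(D) :=
      pResidualOf_le_Cz_of_le hD.pgrp (inf_le_left.trans hD.nm)
        (commutator_le_of_le_secCz inf_le_right) (h.leCz _)
    exact res_le_Cz h.odd hQ inf_le_left fun y hy e =>
      le_centralizer_iff.1 h1 ((hD.mem y hy).1 e)
  obtain ⟨r, hr, hrQ⟩ := SetLike.exists_of_lt (hE.lt' h hP hx)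
  have hr0 : r ∉ secCz D (zpowers x) := fun hh => hrQ (h0 ⟨hr, hr.2, hh⟩)
  obtain ⟨n, hnQ, hnW⟩ := SetLike.not_le_iff_exists.1 (hE.not_inv h hP hx hW)
  set V := cj n W with hV0
  have hV : El p 2 V Q := by have := hW.cj n; rwa [cj_eq_of_mem_normalizer hnQ] at this
  have hne : ¬ V ≤ W := fun hh => hnW (mem_normalizer_of_cj_le hh)
  have hne' : ¬ W ≤ V := fun hh =>
    hne (eq_of_le_of_card_ge hh (by rw [hV.card, hW.card])).ge
  obtain ⟨b, hb, hbW⟩ := SetLike.not_le_iff_exists.1 hne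
  have hbX : b ∉ zpowers x := fun hh => hbW (h.X_le hW hh)
  have hbD := hD.el_le hV hb
  have hDW : D ≤ Nm(W) := le_Nm_of_relIndex_prime hD.pgrp (hD.el_le hW) (hD.idx hW)
  have cDR : ⁅D, R⁆ ≤ W := comm_le_of_idx hDW (hD.idx hW) hRp (inf_le_right.trans hD.nm) hn
  have cWR : ⁅W, R⁆ ≤ zpowers x := h.comm_el hW hRp hn
  have gen : ∀ {U : Subgroup G} {c k : G}, El p 2 U Q → c ∈ D → c ∉ U →
      (∀ u ∈ U, ⁅u, k⁆ ∈ zpowers x) → ⁅c, k⁆ ∈ zpowers x → k ∈ secCz D (zpowers x) := by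
    intro U c k hU hc hcU h1 h2
    refine ⟨h.nm ⊤ trivial, fun d hd => (cX d k).2 ?_⟩
    have : D ≤ (Cx(f k)).comap f := by
      rw [← sup_eq_of_relIndex_prime (hD.el_le hU) (hD.idx hU) (zpowers_le_of_mem hc)
        fun hh => hcU (hh (mem_zpowers c))]
      exact sup_le (fun u hu => mem_Cx.2 ((cX u k).1 (h1 u hu)))
        (zpowers_le_of_mem (mem_Cx.2 ((cX c k).1 h2)))
    exact mem_Cx.1 (this hd)
  set a := ⁅r, b⁆ with ha0
  have ha : a ∈ W := by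
    rw [ha0, ← commutatorElement_inv]; exact inv_mem (cDR (commutator_mem_commutator hbD hr))
  have haX : a ∉ zpowers x := fun hh => hr0 (gen hW hbD hbW
    (fun u hu => cWR (commutator_mem_commutator hu hr))
    (by rw [← commutatorElement_inv]; exact inv_mem hh))
  have haV : a ∉ V := fun hh => hne' (by
    rw [← h.gen_el hW ha haX]; exact sup_le (h.X_le hV) (zpowers_le_of_mem hh))
  have haD := hD.el_le hW ha
  set r' := n * r * n⁻¹ with hr'0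
  have hr' : r' ∈ cj n R := conj_mem_cj n hr
  have cDR' : ⁅D, cj n R⁆ ≤ V := by
    have := cj_mono n cDR
    rwa [cj_commutator, cj_eq_of_mem_normalizer (hD.nm hnQ)] at this
  have cVR' : ⁅V, cj n R⁆ ≤ zpowers x := by
    have := cj_mono n cWR
    rwa [cj_commutator, cj_normal n (zpowers x)] at this
  have hr0' : r' ∉ secCz D (zpowers x) := fun hh => hr0 (by
    have := conj_mem_of_mem_normalizer' (le_Nm_secCz hD.nm (h.nm _) hnQ) hh
    rwa [hr'0, show n⁻¹ * (n * r * n⁻¹) * n = r by group] at this)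
  set c := ⁅r', a⁆ with hc0
  have hc : c ∈ V := by
    rw [hc0, ← commutatorElement_inv]; exact inv_mem (cDR' (commutator_mem_commutator haD hr'))
  have hcX : c ∉ zpowers x := fun hh => hr0' (gen hV haD haV
    (fun u hu => cVR' (commutator_mem_commutator hu hr'))
    (by rw [← commutatorElement_inv]; exact inv_mem hh))
  have hbi := inv_mem hb
  rw [← h.gen_el hV hc hcX, mem_sup_of_le_Nm' (h.nm _)] at hbi
  obtain ⟨x', hx', _, ⟨e, rfl⟩, he⟩ := hbi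
  have he' : (f b)⁻¹ = f c ^ e := by
    rw [← map_inv, ← he, map_mul, (memX _).2 hx', one_mul, map_zpow]
  have hab : f a * f b = f b * f a := (cX _ _).1 (hDX (commutator_mem_commutator haD (hD.le hbD)))
  have k1 : f r * f a * (f r)⁻¹ = f a := by
    rw [← (cX _ _).1 (cWR (commutator_mem_commutator ha hr))]; group
  have k2 : f r * f b * (f r)⁻¹ = f a * f b := by
    rw [ha0, map_commutatorElement, commutatorElement_def]; group
  have k3 : f r' ^ e * f b * (f r' ^ e)⁻¹ = f b := by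
    have : Commute (f b) (f r') := (cX _ _).1 (cVR' (commutator_mem_commutator hb hr'))
    rw [← (this.zpow_right e).eq]; group
  have k4 : f r' ^ e * f a * (f r' ^ e)⁻¹ = (f b)⁻¹ * f a := by
    rw [he']
    refine conj_zpow_eq ?_ ?_ e
    · rw [hc0, map_commutatorElement f r' a, commutatorElement_def (f r') (f a)]; group
    · exact ((cX _ _).1 (cVR' (commutator_mem_commutator hc hr'))).symm
  obtain ⟨k5, k6⟩ := sl2_neg hab k1 k2 k3 k4
  set t := (r * r' ^ e * r) ^ 2 with ht0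
  have hft : f t = (f r * f r' ^ e * f r) ^ 2 := by simp only [ht0, map_pow, map_mul, map_zpow]
  rw [← hft] at k5 k6
  have htQ : t ∈ Nm(Q) := pow_mem (mul_mem (mul_mem hr.2 (zpow_mem
    (mul_mem (mul_mem hnQ hr.2) (inv_mem hnQ)) e)) hr.2) 2
  have hinv : ∀ d ∈ D, t * d * t⁻¹ * d ∈ zpowers x := by
    intro d hd
    rw [← sup_eq_of_relIndex_prime (hD.el_le hW) (hD.idx hW) (zpowers_le_of_mem hbD)
      (fun hh => hbW (hh (mem_zpowers b))), mem_sup_of_le_Nm' (zpowers_le_of_mem (hDW hbD))] at hd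
    obtain ⟨w, hw, _, ⟨j, rfl⟩, rfl⟩ := hd
    rw [← h.gen_el hW ha haX, mem_sup_of_le_Nm' (h.nm _)] at hw
    obtain ⟨y, hy, _, ⟨i, rfl⟩, rfl⟩ := hw
    rw [← memX]
    simp only [map_mul, map_inv, map_zpow, (memX _).2 hy, one_mul]
    have hc : Commute (f a ^ i) (f b ^ j) := (Commute.zpow_zpow hab i j)
    calc _ = (f t * f a * (f t)⁻¹) ^ i * (f t * f b * (f t)⁻¹) ^ j * (f a ^ i * f b ^ j) := by
          rw [conj_zpow, conj_zpow]; group
      _ = 1 := by rw [k5, k6, hc.eq]; group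
  have htW : t ∈ Nm(W) := mem_normalizer_of_conj_mem fun w hw =>
    (mul_mem_cancel_right hw).1 (h.X_le hW (hinv w (hD.el_le hW hw)))
  set K := Nm(Q) ⊓ secCz D W ⊓ secCz W (zpowers x)
  have hRK : R ≤ K := le_inf (le_inf inf_le_right (le_secCz hn cDR)) (le_secCz (h.nm _) cWR)
  have hS : SylIn p R K := hE.syl.mono hRK (le_inf le_top (inf_le_left.trans inf_le_left))
  have htK : t ∈ Nm(K) := by
    have e1 : zpowers t ≤ Nm(Q) := zpowers_le_of_mem htQ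
    have e2 : zpowers t ≤ Nm(W) := zpowers_le_of_mem htW
    exact nI (nI (e1.trans (Nm_le_Nm_Nm Q)) (le_Nm_secCz (e1.trans hD.nm) e2))
      (le_Nm_secCz e2 (h.nm _)) (mem_zpowers t)
  obtain ⟨k, hk, m, hm, e⟩ := hS.frattini htK
  have hk1 : k ∈ Nm(Q) := hk.1.1
  have hk2 : k ∈ secCz D W := hk.1.2
  refine ⟨m, ⟨(mul_mem_cancel_left hk1).1 (e ▸ htQ), hm⟩, fun d hd => ?_⟩
  have hy := hinv d hd
  have e2 : m * d * m⁻¹ * d = (k⁻¹ * (t * d * t⁻¹ * d) * k) * ⁅d⁻¹, k⁻¹⁆⁻¹ := by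
    rw [e, commutatorElement_def]; group
  rw [e2]
  exact mul_mem (h.X_le hW (conj_mem_of_mem_normalizer' (h.nm ⊤ trivial) hy))
    (inv_mem ((inv_mem hk2).2 _ (inv_mem hd)))

end Ess

end CfH5.R2
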